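import Mathlib
import Cfsg.Agent.Lib.StdW.Cov

/-! The normaliser of `⟨t⟩ × Û` contains the translations. -/

set_option autoImplicit false
set_option linter.unusedSectionVars false

namespace H36.SW

open Subgroup H69

variable {X : Type} [Group X] {G : Type*} [Group G]

theorem exists_fix [Finite G] {S : Set G} {p K : ℕ} [Fact p.Prime] (hS : ¬ p ∣ Nat.card S) {h : G}
    (hh : h ^ p ^ K = 1) (inv : ∀ x ∈ S, h * x * h⁻¹ ∈ S) : ∃ x ∈ S, h * x * h⁻¹ = x := by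
  classical
  have := Fintype.ofFinite S
  let f : S → S := fun x => ⟨_, inv x x.2⟩
  have fi : Function.Injective f := fun x y e => Subtype.ext (by simpa [f] using e)
  let σ : Equiv.Perm S := Equiv.ofBijective f (Finite.injective_iff_bijective.1 fi)
  have e : ∀ (n : ℕ) (x : S), ((σ ^ n) x : G) = h ^ n * x * (h ^ n)⁻¹ := fun n x => by
    induction n with
    | zero => simp
    | succ n ih =>
      rw [pow_succ', Equiv.Perm.mul_apply]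
      show h * ((σ ^ n) x : G) * h⁻¹ = _
      rw [ih, pow_succ']; group
  obtain ⟨x, hx⟩ := Equiv.Perm.exists_fixed_point_of_prime (p := p) (n := K) (σ := σ)
    (by rwa [← Nat.card_eq_fintype_card]) (Equiv.ext fun x => Subtype.ext (by rw [e, hh]; simp))
  exact ⟨x, x.2, congrArg Subtype.val hx⟩

/-- `a = ẑ`, `P = Û` -/
structure Cx (F : Fx X) (t : G) (L O : Subgroup G) (α : G → X) (a : G) (P : Subgroup G) : Prop
    extends W0 F t L O α where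
  aL : a ∈ L
  a2 : a * a = 1
  az : α a = F.z
  hP : ∀ p, p ∈ P ↔ p ∈ L ∧ P2 p ∧ α p ∈ F.U
  cP : Nat.card P = 16
  fus : ∃ g, g * t * g⁻¹ = t * a

theorem W.exists_cx [Finite G] {F : Fx X} {t : G} {L O : Subgroup G} {α : G → X} (w : W F t L O α) :
    ∃ a P, Cx F t L O α a P := by
  obtain ⟨g, a, h1, h2, h3, h4⟩ := w.fus
  obtain ⟨P, h5, h6⟩ := w.cov.exists_lift F.UJ (F.syl.isP.to_le F.UT)
  exact ⟨a, P, w.toW0, h1, h2, h3, h5, h6.trans F.cU, g, h4⟩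

variable {F : Fx X} {t : G} {L O : Subgroup G} {α : G → X} {a : G} {P : Subgroup G}

/-- an elementary abelian subgroup of `C(t)` over `t` is determined by its image -/
theorem W0.mem_of_im [Finite G] (w : W0 F t L O α) {E : Subgroup G} (h1 : ∀ e ∈ E, e * t = t * e)
    (h2 : ∀ e ∈ E, e * e = 1) (ht : t ∈ E) {e e' : G} (c : e * t = t * e) (e2 : e * e = 1)
    (he : e' ∈ E) (hJ : α e ∈ F.J) (h : α e' = α e) : e ∈ E := by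
  obtain ⟨x, hx, ex, x2⟩ := w.cov.lift2 hJ (w.cov.p2 (w.CN e c) (P2.of_sq e2))
  have : x ∈ E := by
    rcases w.over2 (h1 _ he) (P2.of_sq (h2 _ he)) hx x2 (ex.trans h.symm) with rfl | rfl
    · exact he
    · exact (mul_mem_cancel_right ht).1 he
  rcases w.over2 c (P2.of_sq e2) hx x2 ex with rfl | rfl
  · exact this
  · exact mul_mem this ht

namespace Cx
variable (x : Cx F t L O α a P)
include x

theorem PL : P ≤ L := fun p hp => ((x.hP p).1 hp).1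
theorem PU {p : G} (hp : p ∈ P) : α p ∈ F.U := ((x.hP p).1 hp).2.2
theorem P2' {p : G} (hp : p ∈ P) : P2 p := ((x.hP p).1 hp).2.1
theorem Psq {p : G} (hp : p ∈ P) : p * p = 1 := by
  have := x.cov.pow_eq_one (x.PL hp) (x.P2' hp) (n := 2) (by rw [pow_two, F.U2 _ (x.PU hp)])
  rwa [pow_two] at this
theorem Pt {p : G} (hp : p ∈ P) : p * t = t * p := x.Lt (x.PL hp)
theorem aP : a ∈ P := (x.hP a).2 ⟨x.aL, P2.of_sq x.a2, x.az ▸ F.zU⟩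
theorem a1 : a ≠ 1 := fun e => F.z1 (by rw [← x.az, e, x.cov.one])
theorem Pinj {p p' : G} (hp : p ∈ P) (hp' : p' ∈ P) (e : α p = α p') : p = p' :=
  x.cov.uniq (x.PL hp) (x.PL hp') (x.P2' hp) (x.P2' hp') e
theorem Pne {p : G} (hp : p ∈ P) (h : p ≠ 1) : α p ≠ 1 := fun e =>
  h (x.Pinj hp (one_mem _) (e.trans x.cov.one.symm))
theorem Pc {p p' : G} (hp : p ∈ P) (hp' : p' ∈ P) : p * p' = p' * p := comm_of_sq (fun _ => x.Psq) hp hp'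

theorem memE {e : G} : e ∈ P ⊔ zpowers t ↔ ∃ p ∈ P, e = p ∨ e = t * p := by
  rw [mem_sup_comm fun p hp b hb => ((mem_zp x.t2).1 hb).elim (fun e => by simp [e]) fun e => e ▸ x.Pt hp]
  constructor
  · rintro ⟨p, hp, b, hb, rfl⟩
    exact ⟨p, hp, ((mem_zp x.t2).1 hb).imp (fun e => by simp [e]) fun e => by rw [e, x.Pt hp]⟩
  · rintro ⟨p, hp, rfl | rfl⟩
    · exact ⟨_, hp, 1, one_mem _, by simp⟩
    · exact ⟨p, hp, t, mem_zpowers t, (x.Pt hp).symm⟩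

theorem tE : t ∈ P ⊔ zpowers t := mem_sup_right (mem_zpowers t)

theorem Esq {e : G} (he : e ∈ P ⊔ zpowers t) : e * e = 1 := by
  obtain ⟨p, hp, rfl | rfl⟩ := x.memE.1 he
  · exact x.Psq hp
  · rw [mul_assoc, ← mul_assoc p, x.Pt hp, mul_assoc, x.Psq hp, mul_one, x.t2]

theorem Et {e : G} (he : e ∈ P ⊔ zpowers t) : e * t = t * e := comm_of_sq (fun _ => x.Esq) he x.tE

theorem EU {e : G} (he : e ∈ P ⊔ zpowers t) : α e ∈ F.U := by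
  obtain ⟨p, hp, rfl | rfl⟩ := x.memE.1 he
  · exact x.PU hp
  · rw [x.cov.cen_mul (le_normalizer (x.PL hp)) x.tL]; exact x.PU hp

theorem EO {e o : G} (he : e ∈ P ⊔ zpowers t) (ho : o ∈ O) : e * o = o * e := by
  obtain ⟨p, hp, rfl | rfl⟩ := x.memE.1 he
  · exact x.LO (x.PL hp) ho
  · exact (Commute.mul_left (x.Ot o ho).symm (x.LO (x.PL hp) ho) :)

theorem cjP {l p : G} (hl : l ∈ L) (hn : α l ∈ 𝐍(F.U)) (hp : p ∈ P) : l * p * l⁻¹ ∈ P :=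
  (x.hP _).2 ⟨mul_mem (mul_mem hl (x.PL hp)) (inv_mem hl), (x.P2' hp).conj l, by
    rw [x.cov.conj (le_normalizer hl) (le_normalizer (x.PL hp))]
    exact conj_mem_of_mem_normalizer hn (x.PU hp)⟩

theorem cjt {l : G} (hl : l ∈ L) : l * t * l⁻¹ = t := by rw [x.Lt hl, mul_inv_cancel_right]

variable [Finite G]

theorem lift {u : X} (hu : u ∈ F.U) : ∃ p ∈ P, α p = u :=
  let ⟨p, h1, h2, h3⟩ := x.cov.lift2 (F.UJ hu) (P2.of_sq (F.U2 u hu))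
  ⟨p, (x.hP p).2 ⟨h1, h3, h2 ▸ hu⟩, h2⟩

theorem cE : Nat.card (P ⊔ zpowers t : Subgroup G) = 32 := by
  rw [card_sup_comm (fun p hp b hb => ((mem_zp x.t2).1 hb).elim (fun e => by simp [e]) fun e => e ▸ x.Pt hp)
    fun p hp hb => ((mem_zp x.t2).1 hb).elim id fun e => absurd (e ▸ x.PL hp) x.tL', x.cP,
    card_zp x.t2 x.t1]

theorem NE {l : G} (hl : l ∈ L) (hn : α l ∈ 𝐍(F.U)) : l ∈ 𝐍(P ⊔ zpowers t) :=
  mem_normalizer_of_cj_le (by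
    rw [cj_sup, cj_zpowers, x.cjt hl]
    exact sup_le_sup_right (fun _ ⟨p, hp, e⟩ => e ▸ x.cjP hl hn hp) _)

/-- `N_L(Û)` is transitive on `Û#` -/
theorem trP {v : G} (hv : v ∈ P) (h1 : v ≠ 1) : ∃ l ∈ L, α l ∈ 𝐍(F.U) ∧ l * a * l⁻¹ = v := by
  obtain ⟨n, hn, nU, e⟩ := F.tr1 _ (x.PU hv) (x.Pne hv h1)
  obtain ⟨l, hl, rfl⟩ := x.cov.onto n hn
  exact ⟨l, hl, nU, x.cov.conj_eq (le_normalizer hl) x.aL (x.PL hv) (P2.of_sq x.a2) (x.P2' hv) (x.az ▸ e)⟩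

variable [Finite X]

theorem move : ∃ γ ∈ 𝐍(P ⊔ zpowers t), γ * t * γ⁻¹ ≠ t := by
  obtain ⟨g, hg⟩ := x.fus
  have ta : t * a ∈ P ⊔ zpowers t := x.memE.2 ⟨a, x.aP, Or.inr rfl⟩
  have key : ∀ k : G, k * (t * a) * k⁻¹ = t → (∀ e ∈ (P ⊔ zpowers t) ^ᶜ k, e * t = t * e) ∧
      (∀ e ∈ (P ⊔ zpowers t) ^ᶜ k, e * e = 1) ∧ t ∈ (P ⊔ zpowers t) ^ᶜ k := fun k hk => by
    have h2 : ∀ e ∈ (P ⊔ zpowers t) ^ᶜ k, e * e = 1 := fun _ ⟨e, he, h⟩ => h ▸ cjsq (x.Esq he) k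
    have h3 : t ∈ (P ⊔ zpowers t) ^ᶜ k := by have := cj_mem k ta; rwa [hk] at this
    exact ⟨fun e he => comm_of_sq h2 he h3, h2, h3⟩
  obtain ⟨h1, h2, h3⟩ := key g⁻¹ (by rw [← hg]; group)
  have hN : (P ⊔ zpowers t) ^ᶜ g⁻¹ ≤ 𝐍(L) := fun e he => x.CN e (h1 e he)
  have hc := x.cov.card_im hN
  have hc2 : Nat.card ((P ⊔ zpowers t) ^ᶜ g⁻¹ ⊓ 𝐂(L) : Subgroup G) ≤ 2 :=
    card_zp x.t2 x.t1 ▸ card_le_of_le fun e he =>
      (mem_zp x.t2).2 (x.ker_P2 he.2 (h1 e he.1) (P2.of_sq (h2 e he.1)))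
  rw [card_cj, x.cE] at hc
  obtain ⟨j, hj, e⟩ := F.ea (x.cov.im ((P ⊔ zpowers t) ^ᶜ g⁻¹))
    (fun _ h => let ⟨e, he, hn, h⟩ := x.cov.mem_im.1 h; h ▸ x.cov.sq hn (h2 e he)) (by nlinarith)
  obtain ⟨l, hl, rfl⟩ := x.cov.onto j hj
  have hk : l * g⁻¹ * (t * a) * (l * g⁻¹)⁻¹ = t := by
    rw [← hg]; conv_rhs => rw [← x.cjt hl]
    group
  obtain ⟨k1, k2, k3⟩ := key _ hk
  have i1 : ∀ e ∈ (P ⊔ zpowers t) ^ᶜ (l * g⁻¹), α e ∈ x.cov.im ((P ⊔ zpowers t) ^ᶜ g⁻¹) ^ᶜ α l := by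
    rw [← cj_cj]
    rintro _ ⟨e, he, rfl⟩
    exact x.cov.conj (le_normalizer hl) (hN he) ▸ cj_mem _ (x.cov.mem_im.2 ⟨e, he, hN he, rfl⟩)
  have i2 : ∀ y ∈ x.cov.im ((P ⊔ zpowers t) ^ᶜ g⁻¹) ^ᶜ α l, ∃ e ∈ (P ⊔ zpowers t) ^ᶜ (l * g⁻¹), α e = y := by
    rintro _ ⟨y, hy, rfl⟩
    obtain ⟨e, he, hn, rfl⟩ := x.cov.mem_im.1 hy
    exact ⟨_, cj_cj _ g⁻¹ l ▸ cj_mem l he, x.cov.conj (le_normalizer hl) hn⟩
  have ne : l * g⁻¹ * t * (l * g⁻¹)⁻¹ ≠ t := fun h => x.a1 (by simpa using h.trans hk.symm)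
  generalize l * g⁻¹ = k at *
  rcases e with e | e <;> rw [e] at i1 i2
  · refine ⟨k, mem_normalizer_of_cj_le fun y hy => ?_, ne⟩
    obtain ⟨p, hp, ep⟩ := x.lift (i1 y hy)
    exact x.mem_of_im (fun _ => x.Et) (fun _ => x.Esq) x.tE (k1 y hy) (k2 y hy) (mem_sup_left hp)
      (F.UJ (i1 y hy)) ep
  · have m := cj_mem k x.tE
    obtain ⟨n, hn, nV, nv⟩ := F.mvV _ (i1 _ m) fun h =>
      (x.ker_P2 ((x.cov.ker _ (x.CN _ (k1 _ m))).1 h) (k1 _ m) (P2.of_sq (k2 _ m))).elim (cjne x.t1 k) ne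
    obtain ⟨b, hb, rfl⟩ := x.cov.onto n hn
    have bN : b ∈ 𝐍((P ⊔ zpowers t) ^ᶜ k) := mem_normalizer_of_cj_le (by
      rintro _ ⟨y, hy, rfl⟩
      have h := conj_mem_of_mem_normalizer nV (i1 y hy)
      rw [← x.cov.conj (le_normalizer hb) (x.CN _ (k1 y hy))] at h
      obtain ⟨e', he', h'⟩ := i2 _ h
      exact x.mem_of_im k1 k2 k3 ((Commute.mul_left (x.Lt hb) (k1 y hy)).mul_left
        (Commute.inv_left (x.Lt hb)) :) (cjsq (k2 y hy) b) he' (F.VJ h) h')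
    rw [← cj_normalizer, mem_cj] at bN
    refine ⟨_, bN, fun h => nv (x.cov.comm (le_normalizer hb) (x.CN _ (k1 _ m)) ?_)⟩
    calc _ = k * (k⁻¹ * b * k * t * (k⁻¹ * b * k)⁻¹) * k⁻¹ * b := by group
      _ = _ := by rw [h]

theorem cj_t {γ : G} (h : γ ∈ 𝐍(P ⊔ zpowers t)) : ∃ v ∈ P, γ * t * γ⁻¹ = t * v := by
  obtain ⟨p, hp, e | e⟩ := x.memE.1 (conj_mem_of_mem_normalizer h x.tE)
  · exact absurd (e ▸ x.PL hp) (x.not_conj γ)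
  · exact ⟨p, hp, e⟩

theorem orb {v : G} (hv : v ∈ P) : ∃ δ ∈ 𝐍(P ⊔ zpowers t), δ * t * δ⁻¹ = t * v := by
  by_cases h1 : v = 1
  · exact ⟨1, one_mem _, by simp [h1]⟩
  obtain ⟨γ, hγ, ne⟩ := x.move
  obtain ⟨u, hu, e⟩ := x.cj_t hγ
  obtain ⟨l, hl, lU, rfl⟩ := x.trP hu fun h => ne (by rw [e, h, mul_one])
  obtain ⟨m, hm, mU, rfl⟩ := x.trP hv h1
  refine ⟨m * l⁻¹ * γ, mul_mem (mul_mem (x.NE hm mU) (inv_mem (x.NE hl lU))) hγ, ?_⟩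
  calc _ = m * l⁻¹ * (γ * t * γ⁻¹) * l * m⁻¹ := by group
    _ = m * (l⁻¹ * t * l⁻¹⁻¹) * m⁻¹ * (m * a * m⁻¹) := by rw [e]; group
    _ = _ := by rw [x.cjt (inv_mem hl), x.cjt hm]

theorem NP {γ p : G} (h : γ ∈ 𝐍(P ⊔ zpowers t)) (hp : p ∈ P) : γ * p * γ⁻¹ ∈ P := by
  obtain ⟨v, hv, e | e⟩ := x.memE.1 (conj_mem_of_mem_normalizer h (mem_sup_left hp))
  · exact e ▸ hv
  · obtain ⟨δ, -, e'⟩ := x.orb hv
    refine absurd ?_ (x.not_conj (γ⁻¹ * δ))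
    rw [show γ⁻¹ * δ * t * (γ⁻¹ * δ)⁻¹ = γ⁻¹ * (δ * t * δ⁻¹) * γ by group, e', ← e]
    simpa [mul_assoc] using x.PL hp

/-- a translation -/
theorem transl : ∃ g, ∃ v ∈ P, v ≠ 1 ∧ (∀ p ∈ P, g * p = p * g) ∧ g * t * g⁻¹ = t * v := by
  obtain ⟨q, hq, eq⟩ := x.lift F.qU
  obtain ⟨r, hr, er⟩ := x.lift F.rU
  obtain ⟨w, hw, ew⟩ := x.lift F.wU
  have key : ∀ v : P, ∃ δ ∈ 𝐍(P ⊔ zpowers t), δ * t * δ⁻¹ = t * v ∧ δ * a * δ⁻¹ = a ∧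
      δ * q * δ⁻¹ = q ∧ δ * r * δ⁻¹ = r := fun v => by
    obtain ⟨δ, hδ, e⟩ := x.orb v.2
    have m : ∀ {p}, p ∈ P → δ⁻¹ * p * δ⁻¹⁻¹ ∈ P := x.NP (inv_mem hδ)
    have ne : ∀ {p p'}, p ∈ P → p' ∈ P → α p ≠ α p' → α (δ⁻¹ * p * δ⁻¹⁻¹) ≠ α (δ⁻¹ * p' * δ⁻¹⁻¹) :=
      fun hp hp' h e => h (congrArg α (by simpa using x.Pinj (m hp) (m hp') e))
    have n1 : ∀ {p}, p ∈ P → α p ≠ 1 → α (δ⁻¹ * p * δ⁻¹⁻¹) ≠ 1 := fun hp h =>
      x.Pne (m hp) (cjne (fun e => h (by rw [e, x.cov.one])) _)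
    obtain ⟨n, hn, nU, e1, e2, e3⟩ := F.trt (x.PU (m x.aP)) (x.PU (m hq)) (x.PU (m hr))
      (n1 x.aP (x.az ▸ F.z1)) (n1 hq (eq ▸ F.q1)) (ne hq x.aP (by rw [eq, x.az]; exact F.qz))
      (n1 hr (er ▸ F.r1)) (ne hr x.aP (by rw [er, x.az]; exact F.rz)) (ne hr hq (by rw [er, eq]; exact F.rq))
      (by
        rw [← x.cov.mul' (x.PL (m x.aP)) (x.PL (m hq)), conj_mul]
        exact ne hr (mul_mem x.aP hq) (by rw [x.cov.mul' x.aL (x.PL hq), er, eq, x.az]; exact F.rzq))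
    obtain ⟨l, hl, rfl⟩ := x.cov.onto n hn
    have f : ∀ {p}, p ∈ P → α l * α p * (α l)⁻¹ = α (δ⁻¹ * p * δ⁻¹⁻¹) → δ * l * p * (δ * l)⁻¹ = p :=
      fun {p} hp h => by
        have := x.cov.conj_eq (le_normalizer hl) (x.PL hp) (x.PL (m hp)) (x.P2' hp) (x.P2' (m hp)) h
        calc _ = δ * (l * p * l⁻¹) * δ⁻¹ := by group
          _ = p := by rw [this]; group
    refine ⟨δ * l, mul_mem hδ (x.NE hl nU), ?_, f x.aP (x.az ▸ e1), f hq (eq ▸ e2), f hr (er ▸ e3)⟩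
    rw [← e]; conv_rhs => rw [← x.cjt hl]
    group
  choose δ hδ e0 e1 e2 e3 using key
  have w1 : w ≠ 1 := fun e => F.q1 (by
    have := F.wy1
    rw [← ew, e, x.cov.one, mul_one, F.y11, one_mul] at this
    exact this.symm)
  obtain ⟨v, v', e, ne⟩ := Function.not_injective_iff.1 fun h : Function.Injective
      fun v : P => (⟨_, x.NP (hδ v) hw⟩ : P) =>
    let ⟨v, hv⟩ := Finite.injective_iff_surjective.1 h 1; cjne w1 _ (congrArg Subtype.val hv)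
  have e4 : δ v * w * (δ v)⁻¹ = δ v' * w * (δ v')⁻¹ := congrArg Subtype.val e
  have c : ∀ {p}, δ v * p * (δ v)⁻¹ = δ v' * p * (δ v')⁻¹ → p ∈ centralizer {(δ v)⁻¹ * δ v'} := fun {p} h => by
    rw [mem_centralizer_singleton_iff]
    calc _ = (δ v)⁻¹ * (δ v * p * (δ v)⁻¹) * δ v' := by group
      _ = _ := by rw [h]; group
  obtain ⟨u, hu, e5⟩ := x.cj_t (mul_mem (inv_mem (hδ v)) (hδ v'))
  refine ⟨_, u, hu, fun h => ne (Subtype.ext (mul_left_cancel (a := t) ?_)), fun p hp => ?_, e5⟩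
  · rw [← e0, ← e0]
    rw [h, mul_one] at e5
    conv_lhs => rw [← e5]
    group
  · obtain ⟨d, hd, ed⟩ := x.cov.of_closure (D := P ⊓ centralizer {(δ v)⁻¹ * δ v'})
      (inf_le_left.trans (x.PL.trans le_normalizer)) (by
        rintro _ (rfl | rfl | rfl | rfl)
        exacts [⟨a, ⟨x.aP, c ((e1 v).trans (e1 v').symm)⟩, x.az⟩, ⟨q, ⟨hq, c ((e2 v).trans (e2 v').symm)⟩, eq⟩,
          ⟨r, ⟨hr, c ((e3 v).trans (e3 v').symm)⟩, er⟩, ⟨w, ⟨hw, c e4⟩, ew⟩]) (F.hU ▸ x.PU hp)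
    rw [← x.Pinj hd.1 hp ed]
    exact (mem_centralizer_singleton_iff.1 hd.2).symm

end Cx

end H36.SW
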