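import Mathlib
import Cfsg.Agent.Lib.StdW.C1

/-! An involution `u` with `u t u = t ẑ` centralising `O` and `C_L(ẑ)`. -/

set_option autoImplicit false
set_option linter.unusedSectionVars false

namespace H36.SW

open Subgroup H69

variable {X : Type} [Group X] {G : Type*} [Group G]
variable {F : Fx X} {t : G} {L O : Subgroup G} {α : G → X} {a : G} {P : Subgroup G}

theorem Fx.zQ (F : Fx X) : F.z ∈ F.Q := by
  have : F.z = F.r * (F.y1 * F.r * F.y1) := by rw [F.ry1, ← mul_assoc, F.r2, one_mul]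
  have r : F.r ∈ F.Q := F.hQ ▸ subset_closure (by simp)
  have y : F.y1 ∈ F.Q := F.hQ ▸ subset_closure (by simp)
  exact this ▸ mul_mem r (mul_mem (mul_mem y r) y)

/-- `u e` is not an involution if `u t u⁻¹ = t a` and `e ∈ t C(u)` -/
theorem not_sq {u t a p : G} (u2 : u * u = 1) (ut : u * t * u⁻¹ = t * a)
    (p2 : p * p = 1) (up : u * p = p * u) (pt : p * t = t * p) (h : u * (t * p) * (u * (t * p)) = 1) :
    t * a * t = 1 := by
  have ui : u⁻¹ = u := inv_eq_of_mul_eq_one_left u2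
  calc t * a * t = u * t * u * t * (p * p) := by rw [← ut, ui, p2, mul_one]
    _ = u * t * u * (t * p) * p := by group
    _ = u * t * u * (p * t) * p := by rw [pt]
    _ = u * t * (u * p) * (t * p) := by group
    _ = 1 := by rw [up, ← h]; group

theorem W0.fix_of (w : W0 F t L O α) {u : G} (uO : ∀ o ∈ O, u * o = o * u) {s : Set X}
    (h : ∀ y ∈ s, ∃ l ∈ L, α l = y ∧ u * l = l * u) {l : G} (hl : l ∈ L) (hs : α l ∈ closure s) :
    u * l = l * u := by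
  obtain ⟨d, hd, e⟩ := w.cov.of_closure (D := L ⊓ centralizer {u}) (inf_le_left.trans le_normalizer)
    (fun y hy => let ⟨l, h1, h2, h3⟩ := h y hy; ⟨l, ⟨h1, mem_centralizer_singleton_iff.2 h3.symm⟩, h2⟩) hs
  have := uO _ (w.ZO (mul_mem (inv_mem hd.1) hl)
    (w.cov.cen (w.cov.inv_mul_mem (le_normalizer hd.1) (le_normalizer hl) e)))
  have := Commute.mul_right (mem_centralizer_singleton_iff.1 hd.2).symm this
  rwa [mul_inv_cancel_left] at this

theorem W0.odd_fix (w : W0 F t L O α) {u l : G} (uO : ∀ o ∈ O, u * o = o * u) (a2 : a * a = 1)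
    (hl : l ∈ L) (h3 : α l ^ 3 = 1) (la : l * a = a * l) (h : l * u * l⁻¹ = u ∨ l * u * l⁻¹ = u * a) :
    u * l = l * u := by
  rcases h with h | h
  · exact (mul_inv_eq_iff_eq_mul.1 h).symm
  have c := uO _ (w.ZO (pow_mem hl 3) (by rw [w.cov.pow (le_normalizer hl), h3]))
  have e : l * (l * u * l⁻¹) * l⁻¹ = u := by
    calc _ = l * u * l⁻¹ * (l * a * l⁻¹) := by conv_lhs => rw [h]
                                               group
      _ = u := by rw [h, la, mul_inv_cancel_right, mul_assoc, a2, mul_one]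
  calc u * l = l * (l * (l * u * l⁻¹) * l⁻¹) * l⁻¹ * l := by
        rw [show l * (l * (l * u * l⁻¹) * l⁻¹) * l⁻¹ = l ^ 3 * u * (l ^ 3)⁻¹ by
          simp only [pow_succ, pow_zero]; group, ← c, mul_inv_cancel_right]
    _ = l * u := by rw [e]; group

/-- uniqueness of the pair `{u, u ẑ}` -/
theorem W0.uq [Finite G] (w : W0 F t L O α) (aL : a ∈ L) (a2 : a * a = 1) (az : α a = F.z) {u u' : G}
    (u2 : u * u = 1) (ut : u * t * u⁻¹ = t * a) (uO : ∀ o ∈ O, u * o = o * u)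
    (uQ : ∀ l ∈ L, P2 l → α l ∈ F.Q → u * l = l * u) (u2' : u' * u' = 1) (ut' : u' * t * u'⁻¹ = t * a)
    (uQ' : ∀ l ∈ L, P2 l → α l ∈ F.Q → u' * l = l * u') : u' = u ∨ u' = u * a := by
  have ua := uQ a aL (P2.of_sq a2) (az ▸ F.zQ)
  have c : u * u' * t = t * (u * u') := by
    refine mul_inv_eq_iff_eq_mul.1 ?_
    calc _ = u * (u' * t * u'⁻¹) * u⁻¹ := by group
      _ = u * t * u⁻¹ * (u * a * u⁻¹) := by rw [ut']; group
      _ = t := by rw [ut, ua, mul_inv_cancel_right, mul_assoc, a2, mul_one]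
  have k : ∀ y ∈ F.Q, α (u * u') * y = y * α (u * u') := fun y hy => by
    obtain ⟨l, hl, rfl, l2⟩ := w.cov.lift2 (F.TJ (F.QT hy)) (F.P2T (F.QT hy))
    exact w.cov.comm (w.CN _ c) (le_normalizer hl) (Commute.mul_left (uQ l hl l2 hy) (uQ' l hl l2 hy) :)
  have m : ∀ y ∈ ({F.q, F.r, F.y1, F.y2} : Set X), y ∈ F.Q := fun y hy => F.hQ ▸ subset_closure hy
  obtain ⟨b, hb, bL, e⟩ : ∃ b, (b = 1 ∨ b = a) ∧ b ∈ L ∧ α b = α (u * u') :=
    (F.cQ _ (k _ (m _ (by simp))) (k _ (m _ (by simp))) (k _ (m _ (by simp))) (k _ (m _ (by simp)))).elim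
      (fun e => ⟨1, Or.inl rfl, one_mem _, e ▸ w.cov.one⟩) fun e => ⟨a, Or.inr rfl, aL, e ▸ az⟩
  have ub : u * b = b * u := hb.elim (fun e => by simp [e]) fun e => e ▸ ua
  have b2 : b * b = 1 := hb.elim (fun e => by simp [e]) fun e => e ▸ a2
  have e0 : u' = u * (u * u') := by rw [← mul_assoc, u2, one_mul]
  obtain ⟨o, ho, e | e⟩ := w.ovr c bL e <;> rw [e] at e0
  · rw [← mul_assoc] at e0
    rw [((P2.of_sq u2).mul (P2.of_sq b2) ub).odd_eq_one (e0 ▸ P2.of_sq u2')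
      (Commute.mul_left (uO o ho) (w.LO bL ho) :) (w.oddO o ho), mul_one] at e0
    exact hb.imp (fun e => by rw [e0, e, mul_one]) fun e => by rw [e0, e]
  · rw [w.Lt bL, ← mul_assoc] at e0
    have sq : u * (t * b) * (u * (t * b)) = a := by
      calc _ = u * t * (b * u) * (t * b) := by group
        _ = u * t * u⁻¹ * (u * u) * (b * t) * b := by rw [← ub]; group
        _ = a := by
          rw [ut, u2, mul_one, w.Lt bL, ← w.Lt aL, mul_assoc, mul_assoc, mul_assoc, b2, mul_one, w.t2, mul_one]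
    rw [(P2.of_mul_self (sq ▸ P2.of_sq a2)).odd_eq_one (e0 ▸ P2.of_sq u2') (Commute.mul_left (uO o ho)
      (Commute.mul_left (w.Ot o ho).symm (w.LO bL ho)) :) (w.oddO o ho), mul_one] at e0
    exact absurd (by rw [← az, ← sq, ← e0, u2', w.cov.one]) F.z1

/-- the `2`-elements inducing the translation by `a` and centralising `O` -/
structure Om (t a : G) (O P : Subgroup G) (g : G) : Prop where
  p2 : P2 g
  cO : ∀ o ∈ O, g * o = o * g
  cP : ∀ p ∈ P, g * p = p * g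
  tr : g * t * g⁻¹ = t * a

namespace Cx
variable (x : Cx F t L O α a P) [Finite G] [Finite X]
include x

theorem cenU {g : G} (c : g * t = t * g) (h : ∀ p ∈ P, g * p = p * g) : α g ∈ F.U := by
  have k : ∀ y ∈ F.U, α g * y = y * α g := fun y hy => by
    obtain ⟨p, hp, rfl⟩ := x.lift hy
    exact x.cov.comm (x.CN g c) (le_normalizer (x.PL hp)) (h p hp)
  exact F.cpqr _ (k _ F.zU) (k _ F.qU) (k _ F.rU)

theorem tr_cj {g v l : G} (h1 : ∀ p ∈ P, g * p = p * g) (h2 : g * t * g⁻¹ = t * v) (hl : l ∈ L)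
    (hn : α l ∈ 𝐍(F.U)) : (∀ p ∈ P, l * g * l⁻¹ * p = p * (l * g * l⁻¹)) ∧
      l * g * l⁻¹ * t * (l * g * l⁻¹)⁻¹ = t * (l * v * l⁻¹) := by
  refine ⟨fun p hp => ?_, ?_⟩
  · have := h1 _ (x.cjP (inv_mem hl) (x.cov.inv (le_normalizer hl) ▸ inv_mem hn) hp)
    calc _ = l * (g * (l⁻¹ * p * l⁻¹⁻¹)) * l⁻¹ := by group
      _ = _ := by rw [this]; group
  · calc _ = l * g * (l⁻¹ * t * l⁻¹⁻¹) * g⁻¹ * l⁻¹ := by group
      _ = l * (g * t * g⁻¹) * l⁻¹ := by rw [x.cjt (inv_mem hl)]; group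
      _ = l * t * l⁻¹ * (l * v * l⁻¹) := by rw [h2]; group
      _ = _ := by rw [x.cjt hl]

theorem to_a {g v : G} (hv : v ∈ P) (v1 : v ≠ 1) (h1 : ∀ p ∈ P, g * p = p * g) (h2 : g * t * g⁻¹ = t * v) :
    ∃ l ∈ L, (∀ p ∈ P, l * g * l⁻¹ * p = p * (l * g * l⁻¹)) ∧
      l * g * l⁻¹ * t * (l * g * l⁻¹)⁻¹ = t * a := by
  obtain ⟨l, hl, lU, rfl⟩ := x.trP hv v1
  obtain ⟨h3, h4⟩ := x.tr_cj h1 h2 (inv_mem hl) (x.cov.inv (le_normalizer hl) ▸ inv_mem lU)
  exact ⟨l⁻¹, inv_mem hl, h3, h4.trans (by group)⟩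

theorem tr_inv {g : G} (h1 : ∀ p ∈ P, g * p = p * g) (h2 : g * t * g⁻¹ = t * a) :
    g⁻¹ * t * g = t * a := by
  calc _ = g⁻¹ * (t * a) * (a * g) := by rw [mul_assoc _ _ (a * g), mul_assoc t, ← mul_assoc a, x.a2]; group
    _ = g⁻¹ * (g * t * g⁻¹) * (g * a) := by rw [h2, h1 a x.aP]
    _ = _ := by group

theorem exists_om : ∃ g, Om t a O P g := by
  obtain ⟨g, v, hv, v1, h1, h2⟩ := x.transl
  obtain ⟨l, -, h1, h2⟩ := x.to_a hv v1 h1 h2
  generalize l * g * l⁻¹ = g at h1 h2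
  have h3 := x.tr_inv h1 h2
  have gO : ∀ o ∈ O, g⁻¹ * o * g ∈ O := fun o ho => by
    have c : g⁻¹ * o * g * t = t * (g⁻¹ * o * g) := by
      calc _ = g⁻¹ * (o * (g * t * g⁻¹)) * g := by group
        _ = g⁻¹ * ((g * t * g⁻¹) * o) * g := by
          rw [h2, (Commute.mul_right (x.Ot o ho) (x.LO x.aL ho).symm).eq]
        _ = _ := by group
    have od : Odd (orderOf (g⁻¹ * o * g)) := by rw [H9.orderOf_conj']; exact x.oddO o ho
    refine x.memO ((x.cov.ker _ (x.CN _ c)).1 ?_) c od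
    have u := x.cenU c fun p hp => ((Commute.inv_left (h1 p hp)).mul_left
      (x.LO (x.PL hp) ho).symm).mul_left (h1 p hp)
    rw [← pow_odd_of_sq (F.U2 _ u) od, ← x.cov.pow (x.CN _ c), pow_orderOf_eq_one, x.cov.one]
  obtain ⟨q, hq, eq⟩ := x.lift F.qU
  have q1 : q ≠ 1 := fun e => F.q1 (by rw [← eq, e, x.cov.one])
  obtain ⟨n, hn, nU, en⟩ := x.trP hq q1
  obtain ⟨k1, k2⟩ := x.tr_cj (g := g⁻¹) (v := a) (fun p hp => (Commute.inv_left (h1 p hp) :))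
    (by rwa [inv_inv]) hn nU
  obtain ⟨l, hl, h4, h5⟩ := x.to_a (g := g * (n * g⁻¹ * n⁻¹)) (mul_mem x.aP hq) (fun e => F.qz (by
      rw [← eq, ← x.az, eq_inv_of_mul_eq_one_right e, inv_eq_of_mul_eq_one_left x.a2]))
    (fun p hp => (Commute.mul_left (h1 p hp) (k1 p hp) :)) (by
      calc _ = g * (n * g⁻¹ * n⁻¹ * t * (n * g⁻¹ * n⁻¹)⁻¹) * g⁻¹ := by group
        _ = g * t * g⁻¹ * (g * q * g⁻¹) := by rw [k2, en]; group
        _ = _ := by rw [h2, h1 q hq]; group)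
  have h6 : ∀ o ∈ O, l * (g * (n * g⁻¹ * n⁻¹)) * l⁻¹ * o = o * (l * (g * (n * g⁻¹ * n⁻¹)) * l⁻¹) :=
    fun o ho => by
      refine ((Commute.mul_left (x.LO hl ho) ?_).mul_left (x.LO (inv_mem hl) ho) :)
      rw [← mul_assoc, ← mul_assoc]
      refine Commute.mul_left ?_ (x.LO (inv_mem hn) ho)
      calc _ = g * (n * (g⁻¹ * o * g)) * g⁻¹ := by group
        _ = _ := by rw [x.LO hn (gO o ho)]; group
  generalize l * (g * (n * g⁻¹ * n⁻¹)) * l⁻¹ = k at h4 h5 h6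
  obtain ⟨m, ⟨i, rfl⟩, m2⟩ := exists_odd_P2 k
  refine ⟨_, m2, fun o ho => (Commute.pow_left (h6 o ho) _ :), fun p hp => (Commute.pow_left (h4 p hp) _ :), ?_⟩
  have c : Commute (k ^ 2) t := mul_inv_eq_iff_eq_mul.1 (by
    calc _ = k * (k * t * k⁻¹) * k⁻¹ := by rw [pow_two]; group
      _ = k * (t * a) * k⁻¹ := by rw [h5]
      _ = k * t * k⁻¹ * (k * a * k⁻¹) := by group
      _ = t := by rw [h5, h4 a x.aP, mul_inv_cancel_right, mul_assoc, x.a2, mul_one])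
  rw [pow_succ', pow_mul, mul_assoc k, (c.pow_left i).eq, ← h5]; group

theorem memE_of {g : G} (g2 : P2 g) (c : g * t = t * g) (h : ∀ p ∈ P, g * p = p * g) :
    g ∈ P ⊔ zpowers t := by
  obtain ⟨p, hp, e⟩ := x.lift (x.cenU c h)
  exact x.memE.2 ⟨p, hp, (x.over2 c g2 (x.PL hp) (x.P2' hp) e).imp id fun e => e.trans (x.Pt hp)⟩

theorem om_sq {g : G} (h : Om t a O P g) : g * g ∈ P ⊔ zpowers t :=
  x.memE_of (h.p2.mul h.p2 rfl) (mul_inv_eq_iff_eq_mul.1 (by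
    calc _ = g * (g * t * g⁻¹) * g⁻¹ := by group
      _ = g * (t * a) * g⁻¹ := by rw [h.tr]
      _ = g * t * g⁻¹ * (g * a * g⁻¹) := by group
      _ = t := by rw [h.tr, h.cP a x.aP, mul_inv_cancel_right, mul_assoc, x.a2, mul_one]))
    fun p hp => (Commute.mul_left (h.cP p hp) (h.cP p hp) :)

theorem om_mul {g e : G} (h : Om t a O P g) (he : e ∈ P ⊔ zpowers t) : Om t a O P (g * e) := by
  have n : g * e * g⁻¹ ∈ P ⊔ zpowers t := by
    obtain ⟨p, hp, rfl | rfl⟩ := x.memE.1 he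
    · rwa [h.cP e hp, mul_inv_cancel_right]
    · rw [← conj_mul, h.tr, h.cP p hp, mul_inv_cancel_right]
      exact mul_mem (mul_mem x.tE (mem_sup_left x.aP)) (mem_sup_left hp)
  refine ⟨P2.of_mul_self (P2.of_sq (x.Esq ?_)), fun o ho => (Commute.mul_left (h.cO o ho) (x.EO he ho) :),
    fun p hp => (Commute.mul_left (h.cP p hp) (comm_of_sq (fun _ => x.Esq) he (mem_sup_left hp)) :), ?_⟩
  · rw [show g * e * (g * e) = g * e * g⁻¹ * (g * g) * e by group]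
    exact mul_mem (mul_mem n (x.om_sq h)) he
  · rw [mul_assoc g, x.Et he, ← h.tr]; group

theorem om_div {g k : G} (h : Om t a O P g) (h' : Om t a O P k) : g⁻¹ * k ∈ P ⊔ zpowers t := by
  have c : g⁻¹ * k * t = t * (g⁻¹ * k) := mul_inv_eq_iff_eq_mul.1 (by
    calc _ = g⁻¹ * (k * t * k⁻¹) * g := by group
      _ = t := by rw [h'.tr, ← h.tr]; group)
  obtain ⟨p, hp, e⟩ := x.lift (x.cenU c fun p hp =>
    ((Commute.inv_left (h.cP p hp)).mul_left (h'.cP p hp) :))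
  obtain ⟨o, ho, e⟩ := x.ovr c (x.PL hp) e
  obtain ⟨b, hb, e⟩ : ∃ b ∈ P ⊔ zpowers t, g⁻¹ * k = b * o :=
    e.elim (fun e => ⟨p, mem_sup_left hp, e⟩) fun e => ⟨_, mul_mem (mem_sup_left hp) x.tE, e⟩
  have := (x.om_mul h hb).p2.odd_eq_one (o := o) (by rw [mul_assoc, ← e, mul_inv_cancel_left]; exact h'.p2)
    ((x.om_mul h hb).cO o ho) (x.oddO o ho)
  rw [e, this, mul_one]; exact hb

theorem om_cj {g l : G} (h : Om t a O P g) (hl : l ∈ L) (hn : α l ∈ 𝐍(F.U)) (c : α l * F.z = F.z * α l) :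
    Om t a O P (l * g * l⁻¹) := by
  obtain ⟨h1, h2⟩ := x.tr_cj h.cP h.tr hl hn
  refine ⟨h.p2.conj l, fun o ho => (((Commute.mul_left (x.LO hl ho) (h.cO o ho)).mul_left
    (x.LO (inv_mem hl) ho)) :), h1, ?_⟩
  rw [h2, x.cov.comm_lift (le_normalizer hl) x.aL (P2.of_sq x.a2) (x.az ▸ c), mul_inv_cancel_right]

theorem om_inv {u u' : G} (h : Om t a O P u) (h' : Om t a O P u') (u2 : u * u = 1) (u2' : u' * u' = 1) :
    ∃ p ∈ P, u' = u * p := by
  obtain ⟨p, hp, e | e⟩ := x.memE.1 (x.om_div h h')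
  · exact ⟨p, hp, by rw [← e]; group⟩
  · have := not_sq u2 h.tr (x.Psq hp) (h.cP p hp) (x.Pt hp) (by rw [← e, mul_inv_cancel_left, u2'])
    rw [mul_assoc, x.Lt x.aL, ← mul_assoc, x.t2, one_mul] at this
    exact absurd this x.a1

theorem one_or {p : G} (hp : p ∈ P) (h : α p = 1 ∨ α p = F.z) : p = 1 ∨ p = a :=
  h.imp (fun e => by_contra fun h => x.Pne hp h e) fun e => x.Pinj hp x.aP (e.trans x.az.symm)

theorem cen_h {p : G} (hp : p ∈ P) (c : α p * F.h = F.h * α p) : p = 1 ∨ p = a := by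
  refine x.one_or hp (or_iff_not_imp_left.2 fun h => F.c7 _ F.h1 F.h7 _ _ c F.hz.symm ?_ ?_ h F.z1)
  · rw [show 4 = 2 * 2 from rfl, pow_mul, pow_two (α p), F.U2 _ (x.PU hp), one_pow]
  · rw [show 4 = 2 * 2 from rfl, pow_mul, pow_two F.z, F.z2, one_pow]

theorem exists_inv : ∃ u, Om t a O P u ∧ u * u = 1 ∧ ∃ l ∈ L, α l = F.h ∧ u * l = l * u := by
  have : Fact (Nat.Prime 7) := ⟨by norm_num⟩
  obtain ⟨g, hg⟩ := x.exists_om
  obtain ⟨l, hl, el, K, hK⟩ := x.cov.liftp (by norm_num : Nat.Prime 7) (k := 1) F.hJ F.h7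
  obtain ⟨u, hu, e⟩ := exists_fix (S := {k | Om t a O P k}) (p := 7) (by
      rw [Nat.card_congr (β := (P ⊔ zpowers t : Subgroup G)) ⟨fun k => ⟨_, x.om_div hg k.2⟩,
        fun e => ⟨_, x.om_mul hg e.2⟩, fun k => by simp, fun k => by simp⟩, x.cE]
      decide) hK fun k hk => x.om_cj hk hl (el ▸ F.hN) (el ▸ F.hz)
  have c : u * l = l * u := (mul_inv_eq_iff_eq_mul.1 e).symm
  obtain ⟨p, hp, e | e⟩ := x.memE.1 (x.om_sq hu)
  · rcases x.cen_h hp (el ▸ x.cov.comm (le_normalizer (x.PL hp)) (le_normalizer hl)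
      (e ▸ (Commute.mul_left c c :))) with rfl | rfl
    · exact ⟨u, hu, e, l, hl, el, c⟩
    · refine ⟨_, x.om_mul hu x.tE, ?_, l, hl, el, (Commute.mul_left c (x.Lt hl).symm :)⟩
      calc _ = u * t * u⁻¹ * (u * u) * t := by group
        _ = 1 := by rw [hu.tr, e, mul_assoc t, x.a2, mul_one, x.t2]
  · refine absurd (mul_left_cancel (a := t) (mul_right_cancel (b := p) ?_)) x.a1
    calc t * a * p = u * t * u⁻¹ * (u * p * u⁻¹) := by rw [hu.tr, hu.cP p hp, mul_inv_cancel_right]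
      _ = u * (t * p) * u⁻¹ := by group
      _ = _ := by rw [← e, mul_one, ← e]; group

theorem exists_u : ∃ u, u * u = 1 ∧ u * t * u⁻¹ = t * a ∧ (∀ o ∈ O, u * o = o * u) ∧
    ∀ c ∈ L, c * a = a * c → u * c = c * u := by
  obtain ⟨u, hu, u2, h, hh, eh, uh⟩ := x.exists_inv
  have n : ∀ {l}, l ∈ L → l ∈ 𝐍(L) := fun h => le_normalizer h
  have la : ∀ {l}, l ∈ L → α l * F.z = F.z * α l → l * a = a * l := fun hl c =>
    x.cov.comm_lift (n hl) x.aL (P2.of_sq x.a2) (x.az ▸ c)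
  -- `l u l⁻¹` commutes with every `k` whose image is conjugated by `l⁻¹` to the image of a `k'` fixing `u`
  have tr : ∀ {l k k'}, l ∈ L → k ∈ L → k' ∈ L → u * k' = k' * u → α l * α k' * (α l)⁻¹ = α k →
      l * u * l⁻¹ * k = k * (l * u * l⁻¹) := fun {l k k'} hl hk hk' c e => by
    have := x.fix_of hu.cO (s := {α k'}) (by rintro _ rfl; exact ⟨k', hk', rfl, c⟩)
      (mul_mem (mul_mem (inv_mem hl) hk) (inv_mem (inv_mem hl))) (by
        rw [x.cov.conj (n (inv_mem hl)) (n hk), x.cov.inv (n hl), ← e]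
        exact subset_closure (by simp [mul_assoc]))
    calc _ = l * (u * (l⁻¹ * k * l⁻¹⁻¹)) * l⁻¹ := by group
      _ = _ := by rw [this]; group
  have cp : ∀ {p k}, p ∈ P → k ∈ L → u * k = k * u → u * p * k = k * (u * p) → α p * α k = α k * α p :=
    fun {p k} hp hk c c' => x.cov.comm (n (x.PL hp)) (n hk)
      (mul_left_cancel (a := u) (by rw [← mul_assoc, c', ← mul_assoc, ← mul_assoc, c]))
  have fin : ∀ {l p}, l * u * l⁻¹ = u * p → p = 1 ∨ p = a → l * u * l⁻¹ = u ∨ l * u * l⁻¹ = u * a :=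
    fun e h => h.imp (fun h => by rw [e, h, mul_one]) fun h => by rw [e, h]
  obtain ⟨ρ, hρ, eρ⟩ := x.cov.onto _ F.ρJ
  have uρ : u * ρ = ρ * u := by
    obtain ⟨p, hp, e⟩ := x.om_inv hu (x.om_cj hu hρ (eρ ▸ F.ρN) (eρ ▸ F.ρz)) u2 (cjsq u2 ρ)
    refine x.odd_fix hu.cO x.a2 hρ (eρ ▸ F.ρ3) (la hρ (eρ ▸ F.ρz)) (fin e (x.cen_h hp ?_))
    have := cp hp (pow_mem hh 2) (Commute.pow_right uh 2 :) (e ▸ tr hρ (pow_mem hh 2) hh uh (by
      rw [x.cov.pow (n hh), eρ, eh, F.ρh]))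
    have := (Commute.pow_right this 4).eq
    rwa [x.cov.pow (n hh), eh, ← pow_mul, show 2 * 4 = 7 + 1 from rfl, pow_succ, F.h7, one_mul] at this
  obtain ⟨s, hs, es, s2⟩ := x.cov.lifti F.sJ F.s2
  have us : u * s = s * u := by
    obtain ⟨p, hp, e⟩ := x.om_inv hu (x.om_cj hu hs (es ▸ F.sN) (es ▸ F.sz)) u2 (cjsq u2 s)
    have h1 := cp hp (inv_mem hρ) (Commute.inv_right uρ :) (e ▸ tr hs (inv_mem hρ) hρ uρ (by
      rw [x.cov.inv (n hρ), es, eρ, F.sρ]))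
    rw [x.cov.inv (n hρ), eρ] at h1
    have h2 : p * s = s * p := by
      have si : s⁻¹ = s := inv_eq_of_mul_eq_one_left s2
      have : u * p * (s * p * s⁻¹) = u * p * p := by
        calc _ = s * (s * u * s⁻¹) * s⁻¹ := by conv_rhs => rw [e, ← conj_mul, e]
          _ = _ := by rw [si, mul_assoc u, x.Psq hp, ← mul_assoc, ← mul_assoc, s2, mul_assoc, s2]; simp
      exact (mul_inv_eq_iff_eq_mul.1 (mul_left_cancel this)).symm
    have h3 := fin e (x.one_or hp (F.cρs _ (x.PU hp) (Commute.inv_right_iff.1 h1)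
      (es ▸ x.cov.comm (n (x.PL hp)) (n hs) h2)))
    obtain ⟨i, hi⟩ := F.sh
    have c : Commute u (h ^ i) := Commute.pow_right uh i
    have h4 := x.odd_fix hu.cO x.a2 (mul_mem hs (pow_mem hh i))
      (by rw [x.cov.mul' hs (pow_mem hh i), x.cov.pow (n hh), es, eh, hi])
      (Commute.mul_left (la hs (es ▸ F.sz)) (Commute.pow_left (la hh (eh ▸ F.hz)) i) :)
      (by rwa [mul_assoc s, ← c.eq, mul_inv_rev, ← mul_assoc, ← mul_assoc, mul_inv_cancel_right])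
    have := Commute.mul_right h4 c.inv_right
    rwa [mul_inv_cancel_right] at this
  have gP : ∀ y ∈ F.U, ∃ l ∈ L, α l = y ∧ u * l = l * u := fun y hy =>
    let ⟨p, hp, e⟩ := x.lift hy; ⟨p, x.PL hp, e, hu.cP p hp⟩
  have g7 : ∀ y ∈ ({F.z, F.q, F.r, F.w, F.h, F.ρ, F.s} : Set X), ∃ l ∈ L, α l = y ∧ u * l = l * u := by
    rintro _ (rfl | rfl | rfl | rfl | rfl | rfl | rfl)
    exacts [gP _ F.zU, gP _ F.qU, gP _ F.rU, gP _ F.wU, ⟨h, hh, eh, uh⟩, ⟨ρ, hρ, eρ, uρ⟩, ⟨s, hs, es, us⟩]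
  have uQ : ∀ l ∈ L, α l ∈ F.Q → u * l = l * u := fun l hl hQ => x.fix_of hu.cO g7 hl
    ((closure_le _).2 (by
      rintro _ (rfl | rfl | rfl | rfl)
      exacts [subset_closure (by simp), subset_closure (by simp), F.y1N, F.y2N]) (F.hQ ▸ hQ))
  obtain ⟨d, hd, ed⟩ := x.cov.onto _ F.dJ
  have da := la hd (ed ▸ F.dz)
  have ud : u * d = d * u := x.odd_fix hu.cO x.a2 hd (ed ▸ F.d3) da
    (x.uq x.aL x.a2 x.az u2 hu.tr hu.cO (fun l hl _ => uQ l hl) (cjsq u2 d) (by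
      calc _ = d * u * (d⁻¹ * t * d⁻¹⁻¹) * u⁻¹ * d⁻¹ := by group
        _ = d * (u * t * u⁻¹) * d⁻¹ := by rw [x.cjt (inv_mem hd)]; group
        _ = _ := by rw [hu.tr, ← conj_mul, x.cjt hd, da, mul_inv_cancel_right]) fun l hl _ hQ =>
      have m := mul_mem (mul_mem (inv_mem hd) hl) (inv_mem (inv_mem hd))
      tr hd hl m (uQ _ m (by
        rw [x.cov.conj (n (inv_mem hd)) (n hl), x.cov.inv (n hd), ed]
        exact conj_mem_of_mem_normalizer (inv_mem F.dN) hQ))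
        (by rw [← x.cov.conj (n hd) (n m)]; congr 1; group))
  refine ⟨u, u2, hu.tr, hu.cO, fun c hc ca => x.fix_of hu.cO ?_ hc
    (F.genC _ (x.cov.mem c hc) (x.az ▸ x.cov.comm (n hc) (n x.aL) ca))⟩
  rintro _ (rfl | rfl | rfl | rfl | rfl | rfl | rfl | rfl)
  exacts [gP _ F.zU, gP _ F.qU, gP _ F.rU, gP _ F.wU, ⟨h, hh, eh, uh⟩, ⟨ρ, hρ, eρ, uρ⟩, ⟨s, hs, es, us⟩,
    ⟨d, hd, ed, ud⟩]

end Cx

end H36.SW
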