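import Mathlib
import Cfsg.Agent.Lib.StdW.C2

/-! The involutions `u(b)`, `b` an involution of `L`, and their relations. -/

set_option autoImplicit false
set_option linter.unusedSectionVars false

namespace H36.SW

open Subgroup H69

variable {X : Type} [Group X] {G : Type*} [Group G]
variable {F : Fx X} {t : G} {L O : Subgroup G} {α : G → X} {a u : G}

theorem inv_odd {y o v : G} (hy : P2 y) (c : y * o = o * y) (c' : v * o = o * v) (ho : Odd (orderOf o))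
    (h : v * (y * o) * v⁻¹ = (y * o)⁻¹) : o = 1 := by
  obtain ⟨k, hk⟩ := hy
  have h1 := H9.conj_pow_of_inverts h (2 ^ k)
  rw [Commute.mul_pow c, hk, one_mul, (Commute.pow_right c' _).eq, mul_inv_cancel_right] at h1
  exact (P2.of_pow (k := k) (P2.of_sq (by conv_lhs => rw [h1, ← h1]; rhs; rw [h1]
                                          simp))).eq_one ho

theorem cjm (g x y : G) : g * (x * y) * g⁻¹ = g * x * g⁻¹ * (g * y * g⁻¹) := conj_mul.symm

theorem cj_comm {j x y : X} (h : x * y = y * x) : j * x * j⁻¹ * (j * y * j⁻¹) = j * y * j⁻¹ * (j * x * j⁻¹) := by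
  rw [conj_mul, conj_mul, h]

theorem Fx.four [Finite X] (F : Fx X) {x y : X} (hx : x ∈ F.J) (hy : y ∈ F.J) (x2 : x * x = 1)
    (y2 : y * y = 1) (x1 : x ≠ 1) (y1 : y ≠ 1) (ne : x ≠ y) (c : x * y = y * x) :
    (∀ g, (∀ c ∈ F.J, c * x = x * c → c * y = y * c → g * c = c * g) → g = 1 ∨ g = x ∨ g = y ∨ g = x * y) ∧
      ∃ σ ∈ F.J, σ * x * σ⁻¹ = y ∧ σ * y * σ⁻¹ = x * y := by
  have key : ∀ j ∈ F.J, ∀ y, (∀ g, (∀ c ∈ F.J, c * F.z = F.z * c → c * y = y * c → g * c = c * g) →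
      g = 1 ∨ g = F.z ∨ g = y ∨ g = F.z * y) → (∃ σ ∈ F.J, σ * F.z * σ⁻¹ = y ∧ σ * y * σ⁻¹ = F.z * y) →
      (∀ g, (∀ c ∈ F.J, c * (j * F.z * j⁻¹) = j * F.z * j⁻¹ * c → c * (j * y * j⁻¹) = j * y * j⁻¹ * c →
        g * c = c * g) → g = 1 ∨ g = j * F.z * j⁻¹ ∨ g = j * y * j⁻¹ ∨ g = j * F.z * j⁻¹ * (j * y * j⁻¹)) ∧
      ∃ σ ∈ F.J, σ * (j * F.z * j⁻¹) * σ⁻¹ = j * y * j⁻¹ ∧
        σ * (j * y * j⁻¹) * σ⁻¹ = j * F.z * j⁻¹ * (j * y * j⁻¹) := fun j hj y h1 ⟨σ, hσ, e1, e2⟩ => by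
    refine ⟨fun g hg => ?_, _, F.cjJ hσ j, by rw [← e1]; group, by rw [← cjm j F.z, ← e2]; group⟩
    have := h1 (j⁻¹ * g * j) fun c hc c1 c2 => by
      have := hg _ (F.cjJ hc j) (cj_comm c1) (cj_comm c2)
      calc _ = j⁻¹ * (g * (j * c * j⁻¹)) * j := by group
        _ = _ := by rw [this]; group
    rw [conj_mul]
    refine this.imp (fun e => ?_) (Or.imp (fun e => ?_) (Or.imp (fun e => ?_) fun e => ?_))
    · by_contra h; exact cjne' h j e
    all_goals rw [← e]; group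
  obtain ⟨j, hj, rfl, rfl | rfl⟩ := F.all hx hy x2 y2 x1 y1 ne c
  · refine key j hj _ F.cF1 ?_
    obtain ⟨n, hn, -, e⟩ := F.trp F.qU (mul_mem F.zU F.qU) F.q1
      (fun e => F.qz (by rw [eq_inv_of_mul_eq_one_right e, inv_eq_of_mul_eq_one_left F.z2]))
      fun e => F.z1 (mul_eq_right.1 e)
    exact ⟨n, hn, e⟩
  · exact key j hj _ F.cF2 F.rot2

structure Dx (F : Fx X) (t : G) (L O : Subgroup G) (α : G → X) (a u : G) : Prop
    extends W0 F t L O α where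
  aL : a ∈ L
  a2 : a * a = 1
  az : α a = F.z
  u2 : u * u = 1
  ut : u * t * u⁻¹ = t * a
  uO : ∀ o ∈ O, u * o = o * u
  uC : ∀ c ∈ L, c * a = a * c → u * c = c * u

theorem W.exists_dx [Finite G] [Finite X] (w : W F t L O α) : ∃ a u, Dx F t L O α a u :=
  let ⟨a, _, x⟩ := w.exists_cx
  let ⟨u, h1, h2, h3, h4⟩ := x.exists_u
  ⟨a, u, x.toW0, x.aL, x.a2, x.az, h1, h2, h3, h4⟩

/-- an involution of `L` -/
structure Inv (L : Subgroup G) (b : G) : Prop where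
  mem : b ∈ L
  sq : b * b = 1
  ne : b ≠ 1

theorem Inv.cj {b l : G} (h : Inv L b) (hl : l ∈ L) : Inv L (l * b * l⁻¹) :=
  ⟨mul_mem (mul_mem hl h.mem) (inv_mem hl), cjsq h.sq l, cjne h.ne l⟩
theorem Inv.inv {b : G} (h : Inv L b) : b⁻¹ = b := inv_eq_of_mul_eq_one_left h.sq
theorem Inv.p2 {b : G} (h : Inv L b) : P2 b := P2.of_sq h.sq
theorem Inv.mul {b c : G} (h : Inv L b) (h' : Inv L c) (ne : b ≠ c) (e : b * c = c * b) : Inv L (b * c) :=
  ⟨mul_mem h.mem h'.mem, by rw [mul_assoc, ← mul_assoc c, ← e, mul_assoc, h'.sq, mul_one, h.sq],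
    fun e => ne (by rw [eq_inv_of_mul_eq_one_left e, h'.inv])⟩

open Classical in
/-- the conjugate of `u` belonging to the conjugate `b` of `a` -/
noncomputable def uf (L : Subgroup G) (a u b : G) : G :=
  if h : ∃ l ∈ L, l * a * l⁻¹ = b then h.choose * u * h.choose⁻¹ else 1

namespace Dx
variable (x : Dx F t L O α a u)
include x

theorem ia : Inv L a := ⟨x.aL, x.a2, fun e => F.z1 (by rw [← x.az, e, x.cov.one])⟩

theorem uf_eq {l : G} (hl : l ∈ L) : uf L a u (l * a * l⁻¹) = l * u * l⁻¹ := by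
  have h : ∃ k ∈ L, k * a * k⁻¹ = l * a * l⁻¹ := ⟨l, hl, rfl⟩
  rw [uf, dif_pos h]
  obtain ⟨h1, h2⟩ := h.choose_spec
  generalize h.choose = k at h1 h2
  have := x.uC _ (mul_mem (inv_mem hl) h1) (by
    calc _ = l⁻¹ * (k * a * k⁻¹) * k := by group
      _ = _ := by rw [h2]; group)
  calc _ = l * (l⁻¹ * k * u) * k⁻¹ := by group
    _ = _ := by rw [← this]; group

theorem uf_a : uf L a u a = u := by simpa using x.uf_eq (one_mem L)

theorem ine {b : G} (h : Inv L b) : α b ≠ 1 := fun e => h.ne (x.cov.eq_one h.mem h.p2 e)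
theorem isq {b : G} (h : Inv L b) : α b * α b = 1 := x.cov.sq (le_normalizer h.mem) h.sq
theorem cje {l b c : G} (hl : l ∈ L) (h : Inv L b) (h' : Inv L c) (e : α l * α b * (α l)⁻¹ = α c) :
    l * b * l⁻¹ = c := x.cov.conj_eq (le_normalizer hl) h.mem h'.mem h.p2 h'.p2 e
theorem cjt {l : G} (hl : l ∈ L) : l * t * l⁻¹ = t := by rw [x.Lt hl, mul_inv_cancel_right]

variable [Finite G] [Finite X]

theorem lifti {y : X} (hy : y ∈ F.J) (h : y * y = 1) (h1 : y ≠ 1) : ∃ b, Inv L b ∧ α b = y :=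
  let ⟨b, h2, h3, h4⟩ := x.cov.lifti hy h
  ⟨b, ⟨h2, h4, fun e => h1 (by rw [← h3, e, x.cov.one])⟩, h3⟩

theorem ex {b : G} (h : Inv L b) : ∃ l ∈ L, l * a * l⁻¹ = b := by
  obtain ⟨j, hj, e⟩ := F.inv (x.cov.mem b h.mem) (x.isq h) (x.ine h)
  obtain ⟨l, hl, rfl⟩ := x.cov.onto j hj
  exact ⟨l, hl, x.cje hl x.ia h (x.az ▸ e)⟩

theorem uf_cj {b l : G} (h : Inv L b) (hl : l ∈ L) : uf L a u (l * b * l⁻¹) = l * uf L a u b * l⁻¹ := by
  obtain ⟨k, hk, rfl⟩ := x.ex h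
  rw [x.uf_eq hk, show l * (k * a * k⁻¹) * l⁻¹ = l * k * a * (l * k)⁻¹ by group, x.uf_eq (mul_mem hl hk)]
  group

theorem uf2 {b : G} (h : Inv L b) : uf L a u b * uf L a u b = 1 := by
  obtain ⟨k, hk, rfl⟩ := x.ex h
  rw [x.uf_eq hk, cjsq x.u2]

theorem ufi {b : G} (h : Inv L b) : (uf L a u b)⁻¹ = uf L a u b := inv_eq_of_mul_eq_one_left (x.uf2 h)

theorem uft {b : G} (h : Inv L b) : uf L a u b * t * (uf L a u b)⁻¹ = t * b := by
  obtain ⟨k, hk, rfl⟩ := x.ex h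
  rw [x.uf_eq hk]
  calc _ = k * (u * (k⁻¹ * t * k⁻¹⁻¹) * u⁻¹) * k⁻¹ := by group
    _ = _ := by rw [x.cjt (inv_mem hk), x.ut, ← conj_mul, x.cjt hk]

theorem ufO {b o : G} (h : Inv L b) (ho : o ∈ O) : Commute (uf L a u b) o := by
  obtain ⟨k, hk, rfl⟩ := x.ex h
  rw [x.uf_eq hk]
  exact (Commute.mul_left (x.LO hk ho) (x.uO o ho)).mul_left (x.LO (inv_mem hk) ho)

theorem ufC {b c : G} (h : Inv L b) (hc : c ∈ L) (e : c * b = b * c) : Commute (uf L a u b) c := by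
  have := x.uf_cj h hc
  rw [e, mul_inv_cancel_right] at this
  exact (mul_inv_eq_iff_eq_mul.1 this.symm).symm

theorem tuf {b : G} (h : Inv L b) : t * uf L a u b * t⁻¹ = uf L a u b * b := by
  calc _ = uf L a u b * ((uf L a u b)⁻¹ * t * (uf L a u b)⁻¹⁻¹) * t⁻¹ := by group
    _ = _ := by rw [x.ufi h, x.uft h, ← x.Lt h.mem]; group

theorem shape {b c : G} (hb : Inv L b) (hc : Inv L c) (ne : b ≠ c) (e : b * c = c * b) :
    ∃ f, (f = 1 ∨ f = b ∨ f = c ∨ f = b * c) ∧ (uf L a u b * uf L a u c = uf L a u (b * c) * f ∨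
      uf L a u b * uf L a u c = uf L a u (b * c) * (f * t)) := by
  have hk := hb.mul hc ne e
  have n : ∀ {l}, l ∈ L → l ∈ 𝐍(L) := fun h => le_normalizer h
  have ct : uf L a u (b * c) * (uf L a u b * uf L a u c) * t =
      t * (uf L a u (b * c) * (uf L a u b * uf L a u c)) := mul_inv_eq_iff_eq_mul.1 (by
    calc _ = uf L a u (b * c) * (uf L a u b * (uf L a u c * t * (uf L a u c)⁻¹) * (uf L a u b)⁻¹) *
          (uf L a u (b * c))⁻¹ := by group
      _ = t := by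
        rw [x.uft hc, cjm _ t c, x.uft hb, (x.ufC hb hc.mem e.symm).eq, mul_inv_cancel_right, mul_assoc t,
          cjm _ t, x.uft hk, (x.ufC hk hk.mem rfl).eq, mul_inv_cancel_right, mul_assoc t, hk.sq, mul_one])
  have := (F.four (x.cov.mem b hb.mem) (x.cov.mem c hc.mem) (x.isq hb) (x.isq hc) (x.ine hb) (x.ine hc)
    (fun h => ne (x.cov.uniq hb.mem hc.mem hb.p2 hc.p2 h)) (x.cov.comm (n hb.mem) (n hc.mem) e)).1 _
    fun j hj c1 c2 => by
      obtain ⟨l, hl, rfl⟩ := x.cov.onto j hj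
      have d1 := x.cov.comm_lift (n hl) hb.mem hb.p2 c1
      have d2 := x.cov.comm_lift (n hl) hc.mem hc.p2 c2
      exact x.cov.comm (x.CN _ ct) (n hl) ((x.ufC hk hl (Commute.mul_right d1 d2 :)).mul_left
        ((x.ufC hb hl d1).mul_left (x.ufC hc hl d2)))
  obtain ⟨f, hf, fL, f2, fc, ef⟩ : ∃ f, (f = 1 ∨ f = b ∨ f = c ∨ f = b * c) ∧ f ∈ L ∧ f * f = 1 ∧
      f * (b * c) = b * c * f ∧ α f = α (uf L a u (b * c) * (uf L a u b * uf L a u c)) := by
    rcases this with h | h | h | h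
    · exact ⟨1, by simp, one_mem _, by simp, by simp, h ▸ x.cov.one⟩
    · exact ⟨b, by simp, hb.mem, hb.sq, by rw [mul_assoc, e], h.symm⟩
    · exact ⟨c, by simp, hc.mem, hc.sq, by rw [← mul_assoc, e], h.symm⟩
    · exact ⟨b * c, by simp, hk.mem, hk.sq, rfl, by rw [h, x.cov.mul' hb.mem hc.mem]⟩
  have fin : ∀ {y o}, o ∈ O → P2 (uf L a u (b * c) * y) → y * o = o * y →
      uf L a u (b * c) * (uf L a u b * uf L a u c) = y * o → uf L a u b * uf L a u c = uf L a u (b * c) * y :=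
    fun {y o} ho y2 cm h => by
      have h1 : uf L a u b * uf L a u c = uf L a u (b * c) * y * o := by
        rw [mul_assoc, ← h, ← mul_assoc, x.uf2 hk, one_mul]
      rw [h1, inv_odd y2 ((x.ufO hk ho).mul_left cm) (x.ufO hb ho) (x.oddO o ho)
        (h1 ▸ H9.left_inverts (x.uf2 hb) (x.uf2 hc)), mul_one]
  have kf := x.ufC hk fL fc
  obtain ⟨o, ho, h | h⟩ := x.ovr ct fL ef
  · exact ⟨f, hf, Or.inl (fin ho ((P2.of_sq (x.uf2 hk)).mul (P2.of_sq f2) kf) (x.LO fL ho) h)⟩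
  · refine ⟨f, hf, Or.inr (fin ho ?_ (Commute.mul_left (x.LO fL ho) (x.Ot o ho).symm :) h)⟩
    rw [← mul_assoc, kf.eq, mul_assoc]
    refine (P2.of_sq f2).mul (P2.of_mul_self ?_) (kf.symm.mul_right (x.Lt fL))
    rw [show uf L a u (b * c) * t * (uf L a u (b * c) * t) =
      uf L a u (b * c) * t * (uf L a u (b * c))⁻¹ * t by rw [x.ufi hk, mul_assoc _ _ t], x.uft hk,
      ← x.Lt hk.mem, mul_assoc, x.t2, mul_one]
    exact hk.p2

theorem tw_cj {b c f : G} (hc : Inv L c) (hk : Inv L (b * c)) (fL : f ∈ L) (f2 : f * f = 1)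
    (fc : f * (b * c) = b * c * f) (h : uf L a u b * uf L a u c = uf L a u (b * c) * (f * t)) :
    uf L a u b * uf L a u c * uf L a u b = b * c * uf L a u c := by
  refine eq_mul_inv_iff_mul_eq.2 ?_ |>.trans (by rw [x.ufi hc])
  calc _ = uf L a u (b * c) * f * t * (uf L a u (b * c) * f) * t := by rw [mul_assoc, h]; group
    _ = f * (uf L a u (b * c) * t * (uf L a u (b * c))⁻¹) * f * t := by
      rw [x.ufi hk]; conv_lhs => lhs; lhs; rw [(x.ufC hk fL fc).eq]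
      group
    _ = _ := by
      rw [x.uft hk, ← x.Lt hk.mem, ← mul_assoc, fc, mul_assoc _ t, ← x.Lt fL, ← mul_assoc, mul_assoc _ f f,
        f2, mul_one, mul_assoc, x.t2, mul_one]

theorem add_or {b c : G} (hb : Inv L b) (hc : Inv L c) (ne : b ≠ c) (e : b * c = c * b) :
    uf L a u b * uf L a u c = uf L a u (b * c) ∨ uf L a u b * uf L a u c = uf L a u (b * c) * (b * t) := by
  have hk := hb.mul hc ne e
  obtain ⟨σ, hσ, e1, e2⟩ := (F.four (x.cov.mem b hb.mem) (x.cov.mem c hc.mem) (x.isq hb) (x.isq hc)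
    (x.ine hb) (x.ine hc) (fun h => ne (x.cov.uniq hb.mem hc.mem hb.p2 hc.p2 h))
    (x.cov.comm (le_normalizer hb.mem) (le_normalizer hc.mem) e)).2
  obtain ⟨l, hl, rfl⟩ := x.cov.onto σ hσ
  have s1 := x.cje hl hb hc e1
  have s2 := x.cje hl hc hk (by rw [e2, x.cov.mul' hb.mem hc.mem])
  have s3 : l * (b * c) * l⁻¹ = b := by rw [← conj_mul, s1, s2, e, ← mul_assoc, hc.sq, one_mul]
  have r : ∀ y, uf L a u b * uf L a u c = uf L a u (b * c) * y →
      uf L a u c * uf L a u (b * c) = uf L a u b * (l * y * l⁻¹) := fun y h => by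
    have := congrArg (fun g => l * g * l⁻¹) h
    simp only [← conj_mul, ← x.uf_cj hb hl, ← x.uf_cj hc hl, ← x.uf_cj hk hl, s1, s2, s3] at this
    exact this
  obtain ⟨f, hf, h⟩ := x.shape hb hc ne e
  obtain ⟨fL, f2, fc⟩ : f ∈ L ∧ f * f = 1 ∧ f * (b * c) = b * c * f := by
    rcases hf with rfl | rfl | rfl | rfl
    exacts [⟨one_mem _, by simp, by simp⟩, ⟨hb.mem, hb.sq, by rw [mul_assoc, e]⟩,
      ⟨hc.mem, hc.sq, by rw [← mul_assoc, e]⟩, ⟨hk.mem, hk.sq, rfl⟩]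
  rcases h with h | h
  · have c1 : uf L a u c * uf L a u b = uf L a u b * uf L a u c := by
      rw [← x.ufi hb, ← x.ufi hc, ← mul_inv_rev, x.ufi hb, x.ufi hc, h, mul_inv_rev, x.ufi hk,
        inv_eq_of_mul_eq_one_left f2, (x.ufC hk fL fc).eq]
    have h2 := r f h
    rw [eq_mul_inv_of_mul_eq h.symm, ← mul_assoc, ← c1, ← mul_assoc, x.uf2 hc, one_mul, mul_right_inj,
      inv_eq_of_mul_eq_one_left f2] at h2
    rcases hf with rfl | rfl | rfl | rfl
    · exact Or.inl (by rw [h, mul_one])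
    · exact absurd (h2.trans s1) ne
    · exact absurd (mul_eq_right.1 (h2.trans s2).symm) hb.ne
    · exact absurd (mul_eq_left.1 (h2.trans s3)) hc.ne
  · have h1 := x.tw_cj hc hk fL f2 fc h
    have h2 := r _ h
    have h3 : uf L a u c * (uf L a u b * uf L a u c) = uf L a u b * (b * c) := by
      calc _ = uf L a u b * (uf L a u b * uf L a u c * uf L a u b) * uf L a u c := by
            rw [← mul_assoc, ← mul_assoc, ← mul_assoc, x.uf2 hb, one_mul]
        _ = _ := by rw [h1, mul_assoc, mul_assoc, x.uf2 hc, mul_one]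
    rw [eq_mul_inv_of_mul_eq h.symm, ← mul_assoc, h3, mul_assoc, mul_right_inj, ← conj_mul, x.cjt hl,
      mul_inv_rev, x.ti, inv_eq_of_mul_eq_one_left f2, ← x.Lt fL, ← mul_assoc, mul_left_inj] at h2
    rcases hf with rfl | rfl | rfl | rfl
    · exact absurd (by simpa using h2) hk.ne
    · exact Or.inr h
    · exact absurd (mul_eq_left.1 (h2.trans s2)) hc.ne
    · exact absurd (hk.sq.symm.trans (h2.trans s3)).symm hb.ne

end Dx

theorem eqns_D1 : True := by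
  have := @uf.eq_1.{0}
  trivial

end H36.SW
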