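import Mathlib
import Cfsg.Agent.Lib.StdW.D1

/-! `u` is additive on four-groups; `u(b)` commutes with `t u(c) t` for the generating pairs. -/

set_option autoImplicit false
set_option linter.unusedSectionVars false

namespace H36.SW

open Subgroup H69

variable {X : Type} [Group X] {G : Type*} [Group G]
variable {F : Fx X} {t : G} {L O : Subgroup G} {α : G → X} {a u : G}

theorem can {x : G} (h : x * x = 1) (y : G) : x * (x * y) = y := by rw [← mul_assoc, h, one_mul]

theorem tau {v b x y k z t : G} (v2 : v * v = 1) (b2 : b * b = 1) (x2 : x * x = 1) (y2 : y * y = 1)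
    (z2 : z * z = 1) (k2 : k * k = 1) (vt : v * t * v⁻¹ = t * x) (bt : b * t * b⁻¹ = t * y)
    (vx : Commute v x) (by' : Commute b y) (yv : y * v * y = v * k) (xb : x * b * x = b * (k * z))
    (kv : Commute k v) (kb : Commute k b) (kx : Commute k x) (kz : Commute k z)
    (zv : Commute z v) (zb : Commute z b) (zy : Commute z y) (yx : y * x * y = x * z) :
    Commute (v * b * (v * b)) t ∧ Commute (v * b * (v * b)) x ∧ Commute (v * b * (v * b)) y := by
  have vi : v⁻¹ = v := inv_eq_of_mul_eq_one_left v2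
  have bi : b⁻¹ = b := inv_eq_of_mul_eq_one_left b2
  have c : ∀ g, v * b * g * (v * b)⁻¹ = v * (b * g * b⁻¹) * v⁻¹ := fun g => by group
  have c2 : ∀ {g}, v * b * (v * b * g * (v * b)⁻¹) * (v * b)⁻¹ = g → Commute (v * b * (v * b)) g :=
    fun h => mul_inv_eq_iff_eq_mul.1 (by rw [← h]; conv_lhs => rw [h]
                                         group)
  have fx : ∀ {g}, Commute g v → Commute g b → v * b * g * (v * b)⁻¹ = g := fun h1 h2 => by
    rw [← (h1.mul_right h2).eq, mul_inv_cancel_right]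
  have e1 : v * y * v⁻¹ = y * k := by
    calc _ = y * (y * v * y) * v := by rw [vi, ← mul_assoc, ← mul_assoc, y2, one_mul]
      _ = _ := by rw [yv, ← kv.eq, mul_assoc, mul_assoc, v2, mul_one]
  have ey : v * b * y * (v * b)⁻¹ = y * k := by rw [c, by'.eq, mul_inv_cancel_right, e1]
  have ex : v * b * x * (v * b)⁻¹ = x * (k * z) := by
    have : b * x * b⁻¹ = x * (k * z) := by
      calc _ = x * (x * b * x) * b := by rw [bi, ← mul_assoc, ← mul_assoc, x2, one_mul]
        _ = _ := by rw [xb, ← (kb.mul_left zb).eq, mul_assoc, mul_assoc, b2, mul_one]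
    rw [c, this, (vx.mul_right (kv.mul_left zv).symm).eq, mul_inv_cancel_right]
  have et : v * b * t * (v * b)⁻¹ = t * x * (y * k) := by rw [c, bt, cjm, vt, e1]
  refine ⟨c2 ?_, c2 ?_, c2 ?_⟩
  · rw [et, cjm, cjm, cjm, et, ex, ey, fx kv kb]
    calc _ = t * x * y * (k * x) * k * z * y * (k * k) := by group
      _ = t * x * y * (x * k) * k * z * y := by rw [kx.eq, k2, mul_one]
      _ = t * x * y * x * (k * k) * (z * y) := by group
      _ = t * x * (y * x * y) * z := by rw [k2, zy.eq]; group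
      _ = t * (x * x) * (z * z) := by rw [yx]; group
      _ = t := by rw [x2, z2]; group
  · rw [ex, cjm, ex, fx (kv.mul_left zv) (kb.mul_left zb), mul_assoc, mul_assoc k, ← mul_assoc z, ← kz.eq,
      mul_assoc k, z2, mul_one, k2, mul_one]
  · rw [ey, cjm, ey, fx kv kb, mul_assoc, k2, mul_one]

theorem cj_comm' {j x y : G} (h : Commute x y) : Commute (j * x * j⁻¹) (j * y * j⁻¹) := by
  rw [Commute, SemiconjBy, conj_mul, conj_mul, h.eq]

namespace Dx
variable (x : Dx F t L O α a u) [Finite G] [Finite X]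
include x

theorem tr2 {b c b' c' : G} (hb : Inv L b) (hc : Inv L c) (hb' : Inv L b') (hc' : Inv L c') {j : X}
    (hj : j ∈ F.J) (e1 : j * α b * j⁻¹ = α b') (e2 : j * α c * j⁻¹ = α c') :
    ∃ l ∈ L, l * b * l⁻¹ = b' ∧ l * c * l⁻¹ = c' := by
  obtain ⟨l, hl, rfl⟩ := x.cov.onto j hj
  exact ⟨l, hl, x.cje hl hb hb' e1, x.cje hl hc hc' e2⟩

theorem rel_cj {b c l f : G} (hb : Inv L b) (hc : Inv L c) (hk : Inv L (b * c)) (hl : l ∈ L)
    (h : uf L a u b * uf L a u c = uf L a u (b * c) * f) :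
    uf L a u (l * b * l⁻¹) * uf L a u (l * c * l⁻¹) =
      uf L a u (l * b * l⁻¹ * (l * c * l⁻¹)) * (l * f * l⁻¹) := by
  rw [conj_mul, x.uf_cj hb hl, x.uf_cj hc hl, x.uf_cj hk hl, conj_mul, conj_mul, h]

theorem ne_of {b c : G} (h : α b ≠ α c) : b ≠ c := fun e => h (congrArg α e)

theorem cm {b c : G} (hb : Inv L b) (hc : Inv L c) (h : α b * α c = α c * α b) : b * c = c * b :=
  x.cov.comm_lift (le_normalizer hb.mem) hc.mem hc.p2 h

theorem add_q {q : G} (hq : Inv L q) (eq : α q = F.q) : uf L a u a * uf L a u q = uf L a u (a * q) := by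
  have aq : a ≠ q := x.ne_of (by rw [eq, x.az]; exact F.qz.symm)
  have caq := x.cm x.ia hq (by rw [eq, x.az]; exact F.Uc F.zU F.qU)
  refine (x.add_or x.ia hq aq caq).elim id fun h => ?_
  obtain ⟨r, hr, er⟩ := x.lifti F.rJ F.r2 F.r1
  have tw : ∀ {b c}, Inv L b → Inv L c → α b ∈ F.U → α c ∈ F.U → α c ≠ α b →
      uf L a u b * uf L a u c = uf L a u (b * c) * (b * t) := fun hb hc bU cU ne => by
    obtain ⟨n, hn, -, e1, e2⟩ := F.trp bU cU (x.ine hb) (x.ine hc) ne
    obtain ⟨l, hl, rfl, rfl⟩ := x.tr2 x.ia hq hb hc hn (x.az ▸ e1) (eq ▸ e2)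
    rw [x.rel_cj x.ia hq (x.ia.mul hq aq caq) hl h, cjm l a t, x.cjt hl]
  have car := x.cm x.ia hr (by rw [er, x.az]; exact F.Uc F.zU F.rU)
  have cqr := x.cm hq hr (by rw [er, eq]; exact F.Uc F.qU F.rU)
  have haq := x.ia.mul hq aq caq
  have hqr := hq.mul hr (x.ne_of (by rw [eq, er]; exact F.rq.symm)) cqr
  have e1 : α (a * q) = F.z * F.q := by rw [x.cov.mul' x.aL hq.mem, x.az, eq]
  have e2 : α (q * r) = F.q * F.r := by rw [x.cov.mul' hq.mem hr.mem, er, eq]
  have h2 := tw haq hr (e1 ▸ mul_mem F.zU F.qU) (er ▸ F.rU) (by rw [e1, er]; exact F.rzq)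
  have h3 := tw hq hr (eq ▸ F.qU) (er ▸ F.rU) (by rw [eq, er]; exact F.rq)
  have h4 := tw x.ia hqr (x.az ▸ F.zU) (e2 ▸ mul_mem F.qU F.rU) (by
    rw [e2, x.az]; intro e
    exact F.rzq (by rw [← e, F.Uc F.qU F.rU, mul_assoc, F.q2, mul_one]))
  have h5 : a * t * uf L a u r = uf L a u r * (a * (t * r)) := by
    rw [← mul_assoc, (x.ufC hr x.aL car).eq, ← x.uft hr, x.ufi hr]
    simp only [mul_assoc, can (x.uf2 hr)]
  have := mul_assoc (uf L a u a) (uf L a u q) (uf L a u r)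
  rw [h, h3, mul_assoc, h5, ← mul_assoc, h2, ← mul_assoc (uf L a u a), h4] at this
  simp only [mul_assoc, mul_right_inj] at this
  have e : q * (t * (a * (t * r))) = q * (a * r) := by
    rw [← mul_assoc a, x.Lt x.aL, mul_assoc t, ← mul_assoc t, x.t2, one_mul]
  rw [e, x.Lt hq.mem, ← mul_assoc t, x.t2, one_mul, mul_eq_left] at this
  exact absurd (congrArg α ((eq_inv_of_mul_eq_one_right this).trans x.ia.inv))
    (by rw [er, x.az]; exact F.rz)

theorem cj_or {b c : G} (hb : Inv L b) (hc : Inv L c) (ne : b ≠ c) (e : b * c = c * b) :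
    uf L a u b * uf L a u c * uf L a u b = uf L a u c ∨
      uf L a u b * uf L a u c * uf L a u b = b * c * uf L a u c := by
  have hk := hb.mul hc ne e
  refine (x.add_or hb hc ne e).imp (fun h => ?_)
    (x.tw_cj hc hk hb.mem hb.sq (by rw [mul_assoc, e]))
  refine eq_mul_inv_iff_mul_eq.2 ?_ |>.trans ((one_mul _).trans (x.ufi hc))
  rw [mul_assoc, h, x.uf2 hk]

theorem add_y {y : G} (hy : Inv L y) (ey : α y = F.y1) : uf L a u a * uf L a u y = uf L a u (a * y) := by
  have cay := x.cm x.ia hy (by rw [ey, x.az]; exact (F.cT _ F.y1T).symm)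
  have ay : a ≠ y := x.ne_of (by rw [ey, x.az]; exact F.y1z.symm)
  refine (x.add_or x.ia hy ay cay).elim id fun h => ?_
  have h1 := x.tw_cj hy (x.ia.mul hy ay cay) x.aL x.a2 (by rw [mul_assoc, cay]) h
  obtain ⟨q, hq, eq⟩ := x.lifti F.qJ F.q2 F.q1
  have aq : a ≠ q := x.ne_of (by rw [eq, x.az]; exact F.qz.symm)
  have caq := x.cm x.ia hq (by rw [eq, x.az]; exact F.Uc F.zU F.qU)
  have haq := x.ia.mul hq aq caq
  have cqy := x.cm hq hy (by rw [ey, eq]; exact F.qy1)
  have nU : F.y1 ∉ F.U := fun h => F.z1 (by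
    have := F.ry1
    rw [F.Uc h F.rU, mul_assoc, F.y11] at this
    exact (mul_left_cancel this).symm)
  have qy : q ≠ y := x.ne_of (by rw [ey, eq]; exact fun e => nU (e ▸ F.qU))
  have h2 := x.cj_or hq hy qy cqy
  have h3 := x.cj_or haq hy (x.ne_of (by
    rw [ey, x.cov.mul' x.aL hq.mem, eq, x.az]; exact fun e => nU (e ▸ mul_mem F.zU F.qU)))
    (Commute.mul_left cay cqy :)
  have h4 : uf L a u (a * q) * uf L a u y * uf L a u (a * q) =
      uf L a u a * (uf L a u q * uf L a u y * uf L a u q) * uf L a u a := by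
    conv_lhs => rhs; rw [← x.ufi haq]
    rw [← x.add_q hq eq, mul_inv_rev, x.ufi hq, x.ufi x.ia]; group
  rw [h4] at h3
  rcases h2 with h2 | h2 <;> rw [h2] at h3
  · rw [h1, mul_eq_right, mul_left_inj, mul_left_inj, eq_comm (b := a * q), mul_eq_left] at h3
    exact absurd h3 (not_or.2 ⟨(x.ia.mul hy ay cay).ne, hq.ne⟩)
  · rw [← mul_assoc, (x.ufC x.ia (mul_mem hq.mem hy.mem) (Commute.mul_left caq.symm cay.symm :)).eq,
      mul_assoc (q * y), mul_assoc (q * y), h1, ← mul_assoc, cay, ← mul_assoc, mul_assoc q, hy.sq, mul_one,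
      ← caq, mul_eq_right, mul_left_inj, eq_comm (b := a * q * y), mul_eq_left] at h3
    exact absurd h3 (not_or.2 ⟨haq.ne, hy.ne⟩)

theorem add {b c : G} (hb : Inv L b) (hc : Inv L c) (ne : b ≠ c) (e : b * c = c * b) :
    uf L a u b * uf L a u c = uf L a u (b * c) := by
  have key : ∀ {y j}, Inv L y → j ∈ F.J → j * F.z * j⁻¹ = α b → j * α y * j⁻¹ = α c →
      uf L a u a * uf L a u y = uf L a u (a * y) → uf L a u b * uf L a u c = uf L a u (b * c) :=
    fun {y j} hy hj e1 e2 h => by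
      obtain ⟨l, hl, rfl, rfl⟩ := x.tr2 x.ia hy hb hc hj (x.az ▸ e1) e2
      have := x.rel_cj x.ia hy (x.ia.mul hy (fun h => ne (by rw [h])) (by
        rw [conj_mul, conj_mul] at e; simpa using e)) hl (h.trans (mul_one _).symm)
      simpa using this
  obtain ⟨j, hj, e1, e2 | e2⟩ := F.all (x.cov.mem b hb.mem) (x.cov.mem c hc.mem) (x.isq hb) (x.isq hc)
    (x.ine hb) (x.ine hc) (fun h => ne (x.cov.uniq hb.mem hc.mem hb.p2 hc.p2 h))
    (x.cov.comm (le_normalizer hb.mem) (le_normalizer hc.mem) e)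
  · obtain ⟨q, hq, eq⟩ := x.lifti F.qJ F.q2 F.q1
    exact key hq hj e1 (eq ▸ e2) (x.add_q hq eq)
  · obtain ⟨y, hy, ey⟩ := x.lifti F.y1J F.y11 F.y11'
    exact key hy hj e1 (ey ▸ e2) (x.add_y hy ey)

theorem ucomm {b c : G} (hb : Inv L b) (hc : Inv L c) (e : b * c = c * b) :
    Commute (uf L a u b) (uf L a u c) := by
  by_cases ne : b = c
  · exact ne ▸ Commute.refl _
  · exact (x.add hb hc ne e).trans (e ▸ (x.add hc hb (Ne.symm ne) e.symm).symm)

/-- `y u(b) y = u(b) u(ẑ)` if `y b y = b ẑ` -/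
theorem cj_a {b y : G} (hb : Inv L b) (hy : Inv L y) (ne : b ≠ a) (e : y * b * y = b * a) :
    y * uf L a u b * y = uf L a u b * u := by
  have h := hb.cj hy.mem
  have := x.uf_cj hb hy.mem
  rw [hy.inv] at this h
  rw [← this, e, ← x.add hb x.ia ne ?_, x.uf_a]
  rw [e] at h
  rw [← h.inv, mul_inv_rev, hb.inv, x.ia.inv]

theorem rel0 {r y : G} (hr : Inv L r) (er : α r = F.r) (hy : Inv L y) (ey : α y = F.y1) :
    Commute (uf L a u r) (uf L a u y * y) := by
  obtain ⟨q, hq, eq⟩ := x.lifti F.qJ F.q2 F.q1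
  have y21 : F.y2 ≠ 1 := fun e => F.z1 (by simpa [e] using F.qy2.symm)
  obtain ⟨k, hk, ek⟩ := x.lifti F.y2J F.y22 y21
  obtain ⟨w, hw, ew⟩ := x.lifti F.wJ F.w2 fun e => F.q1 (by
    have := F.wy1
    rw [e, mul_one, F.y11, one_mul] at this
    exact this.symm)
  have n : ∀ {l}, l ∈ L → l ∈ 𝐍(L) := fun h => le_normalizer h
  have cmT : ∀ {b}, Inv L b → α b ∈ F.T → Commute a b := fun hb h =>
    x.cm x.ia hb (x.az ▸ (F.cT _ h).symm)
  have car := cmT hr (er ▸ F.rT)
  have cay := cmT hy (ey ▸ F.y1T)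
  have lf : ∀ {b c d}, Inv L b → Inv L c → Inv L d → Commute c d → α b * α c * α b = α c * α d →
      b * c * b = c * d := fun {b c d} hb hc hd cm e => by
    have := x.cov.conj_eq (n hb.mem) hc.mem (mul_mem hc.mem hd.mem) hc.p2 (hc.p2.mul hd.p2 cm) (by
      rw [inv_eq_of_mul_eq_one_left (x.isq hb), e, x.cov.mul' hc.mem hd.mem])
    rwa [hb.inv] at this
  have yr := lf hy hr x.ia car.symm (by rw [ey, er, x.az, F.ry1])
  have ry : r * y * r = y * a := by
    calc _ = y * (y * r * y) * r := by rw [← mul_assoc, ← mul_assoc, hy.sq, one_mul]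
      _ = _ := by rw [yr, ← car.eq, mul_assoc, mul_assoc, hr.sq, mul_one]
  have h1 := x.cj_a hr hy (x.ne_of (by rw [er, x.az]; exact F.rz)) yr
  have h2 := x.cj_a hy hr (x.ne_of (by rw [ey, x.az]; exact F.y1z)) ry
  have uy : Commute u y := x.uC y hy.mem cay.symm
  have vy := x.ufC hy hy.mem rfl
  have b2 : uf L a u y * y * (uf L a u y * y) = 1 := by
    rw [mul_assoc, ← mul_assoc y, ← vy.eq, mul_assoc, hy.sq, mul_one, x.uf2 hy]
  have ua : ∀ {b}, Inv L b → Commute a b → Commute u (uf L a u b) := fun hb c => by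
    have := x.ucomm x.ia hb c; rwa [x.uf_a] at this
  obtain ⟨c1, c2, c3⟩ := tau (x.uf2 hr) b2 hr.sq hy.sq x.a2 x.u2 (x.uft hr)
    (by rw [← x.uft hy]; conv_rhs => rw [← x.cjt hy.mem]
        group) (x.ufC hr hr.mem rfl)
    (vy.mul_left (Commute.refl y)) h1 (by
      calc _ = r * uf L a u y * r * (r * y * r) := by simp only [mul_assoc, can hr.sq]
        _ = _ := by rw [h2, ry, mul_assoc, ← mul_assoc u, uy.eq]; group)
    (ua hr car) ((ua hy cay).mul_right uy) (x.uC r hr.mem car.symm) (x.uC a x.aL rfl)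
    (x.ufC hr x.aL car).symm ((x.ufC hy x.aL cay).symm.mul_right cay) cay yr
  have cc : ∀ {b}, Inv L b → Commute b r → Commute b y →
      Commute (uf L a u r * (uf L a u y * y) * (uf L a u r * (uf L a u y * y))) b := fun hb d1 d2 =>
    have := (x.ufC hr hb.mem d1).mul_left ((x.ufC hy hb.mem d2).mul_left d2.symm); this.mul_left this
  have cqr : Commute q r := x.cm hq hr (by rw [er, eq]; exact F.Uc F.qU F.rU)
  have cyk : Commute y k := x.cm hy hk (by rw [ey, ek]; exact F.y12)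
  have c4 := cc hq cqr (x.cm hq hy (by rw [eq, ey]; exact F.qy1))
  have c5 := cc hk (x.cm hk hr (by rw [ek, er]; exact F.ry2.symm)) cyk.symm
  have iv := H9.conj_pow_of_inverts (H9.left_inverts (x.uf2 hr) b2) 2
  rw [pow_two] at iv
  suffices h : uf L a u r * (uf L a u y * y) * (uf L a u r * (uf L a u y * y)) = 1 by
    have := eq_inv_of_mul_eq_one_left h
    rwa [mul_inv_rev, inv_eq_of_mul_eq_one_left b2, x.ufi hr] at this
  obtain ⟨f, hf, fL, ef⟩ : ∃ f, (f = 1 ∨ f = a) ∧ f ∈ L ∧ α f = α _ :=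
    (F.cQ _ (eq ▸ x.cov.comm (x.CN _ c1) (n hq.mem) c4) (er ▸ x.cov.comm (x.CN _ c1) (n hr.mem) c2)
      (ey ▸ x.cov.comm (x.CN _ c1) (n hy.mem) c3) (ek ▸ x.cov.comm (x.CN _ c1) (n hk.mem) c5)).elim
      (fun e => ⟨1, Or.inl rfl, one_mem _, e ▸ x.cov.one⟩) fun e => ⟨a, Or.inr rfl, x.aL, e ▸ x.az⟩
  have f2 : f * f = 1 := hf.elim (fun e => by simp [e]) fun e => e ▸ x.a2
  obtain ⟨o, ho, e | e⟩ := x.ovr c1 fL ef <;> rw [e] at iv
  swap
  · have ft : f * t * (f * t) = 1 := by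
      rw [mul_assoc, ← mul_assoc t, ← x.Lt fL, mul_assoc, x.t2, mul_one, f2]
    rw [inv_odd (P2.of_sq ft) (Commute.mul_left (x.LO fL ho) (x.Ot o ho).symm :) (x.ufO hr ho)
      (x.oddO o ho) iv, mul_one, inv_eq_of_mul_eq_one_left ft, cjm, x.uft hr, (x.ufC hr fL
        (hf.elim (fun e => by simp [e]) fun e => e ▸ car)).eq, mul_inv_cancel_right, ← mul_assoc,
      mul_eq_left] at iv
    exact absurd iv hr.ne
  rw [inv_odd (P2.of_sq f2) (x.LO fL ho) (x.ufO hr ho) (x.oddO o ho) iv, mul_one] at e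
  rcases hf with rfl | rfl
  · exact e
  exfalso
  have key : ∀ {c j}, Inv L c → j ∈ F.J → j * F.r * j⁻¹ = F.w → j * F.y1 * j⁻¹ = α c →
      uf L f u w * w * uf L f u c * (uf L f u w * w) = w * c * w * c * uf L f u c := fun {c j} hc hj e1 e2 => by
    obtain ⟨l, hl, rfl, rfl⟩ := x.tr2 hr hy hw hc hj (by rw [er, ew, e1]) (ey ▸ e2)
    have e' : t * (uf L f u r * (uf L f u y * y) * (uf L f u r * (uf L f u y * y))) * t⁻¹ = r * y * r * y := by
      rw [e, ← x.Lt x.aL, mul_inv_cancel_right, ry, cay.symm.eq, mul_assoc, hy.sq, mul_one]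
    rw [cjm, cjm, cjm, x.tuf hr, x.tuf hy, ← x.Lt hy.mem, mul_inv_cancel_right, mul_assoc _ y y, hy.sq,
      mul_one] at e'
    rw [x.uf_cj hr hl, x.uf_cj hy hl]
    simp only [conj_mul]
    rw [← e']
    simp only [mul_assoc, x.uf2 hy, mul_one]
  obtain ⟨j1, m1, d1, d1'⟩ := F.cj1
  obtain ⟨j2, m2, d2, d2'⟩ := F.cj2
  obtain ⟨j3, m3, d3, d3'⟩ := F.cj3
  have yk : y ≠ k := fun e => F.rq (by
    have := F.wy1
    rw [← ey, e, ek, F.wy2, mul_right_inj] at this
    exact this)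
  have k1 := key hy m1 d1 (ey ▸ d1')
  have k2 := key hk m2 d2 (ek ▸ d2')
  have k3 := key (hy.mul hk yk cyk) m3 d3 (by rw [d3', x.cov.mul' hy.mem hk.mem, ey, ek])
  have yw := lf hy hw hq (x.cm hw hq (by rw [ew, eq]; exact F.Uc F.wU F.qU)) (by rw [ey, ew, eq, F.wy1])
  have kw := lf hk hw hr (x.cm hw hr (by rw [ew, er]; exact F.Uc F.wU F.rU)) (by rw [ek, ew, er, F.wy2])
  have s1 : w * y * w * y = q := by
    rw [mul_assoc, mul_assoc, ← mul_assoc y, yw, ← mul_assoc, hw.sq, one_mul]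
  have s2 : w * k * w * k = r := by
    rw [mul_assoc, mul_assoc, ← mul_assoc k, kw, ← mul_assoc, hw.sq, one_mul]
  have s3 : w * (y * k) * w * (y * k) = q * (r * f) := by
    calc _ = w * (y * k) * w * (k * y) := by rw [← cyk.eq]
      _ = w * y * (k * w * k) * y := by group
      _ = w * y * w * (y * y) * r * y := by rw [kw, hy.sq]; group
      _ = w * y * w * y * (y * r * y) := by group
      _ = _ := by rw [s1, yr]
  have vw := x.ufC hw hw.mem rfl
  have w2 : uf L f u w * w * (uf L f u w * w) = 1 := by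
    rw [mul_assoc, ← mul_assoc w, ← vw.eq, mul_assoc, hw.sq, mul_one, x.uf2 hw]
  have vr : uf L f u y * r = r * u * uf L f u y := by
    calc _ = r * (r * uf L f u y * r) := by rw [← mul_assoc, ← mul_assoc, hr.sq, one_mul]
      _ = _ := by rw [h2, ← (ua hy cay).eq, mul_assoc]
  rw [s3, ← x.add hy hk yk cyk] at k3
  rw [s1] at k1
  rw [s2] at k2
  have : q * (r * u) * (uf L f u y * uf L f u k) = q * (r * f) * (uf L f u y * uf L f u k) := by
    calc _ = q * (r * u * uf L f u y) * uf L f u k := by group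
      _ = q * uf L f u y * (r * uf L f u k) := by rw [← vr]; group
      _ = uf L f u w * w * uf L f u y * (uf L f u w * w * (uf L f u w * w)) * uf L f u k *
            (uf L f u w * w) := by rw [← k1, ← k2]; group
      _ = _ := by rw [w2, ← k3]; group
  rw [mul_left_inj, mul_right_inj, mul_right_inj] at this
  have ut := x.ut
  rw [this, x.cjt x.aL, eq_comm, mul_eq_left] at ut
  exact x.ia.ne ut

/-- the relation for the generators -/
theorem rel {b c : G} (hb : Inv L b) (hc : Inv L c) (sb : α b ∈ F.S) (sc : α c ∈ F.S) :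
    Commute (uf L a u b) (t * uf L a u c * t⁻¹) := by
  obtain ⟨r, hr, er⟩ := x.lifti F.rJ F.r2 F.r1
  obtain ⟨y, hy, ey⟩ := x.lifti F.y1J F.y11 F.y11'
  have key : ∀ {b c j}, Inv L b → Inv L c → j ∈ F.J → j * F.r * j⁻¹ = α b → j * F.y1 * j⁻¹ = α c →
      Commute (uf L a u b) (t * uf L a u c * t⁻¹) := fun hb hc hj e1 e2 => by
    obtain ⟨l, hl, rfl, rfl⟩ := x.tr2 hr hy hb hc hj (er ▸ e1) (ey ▸ e2)
    rw [x.tuf hc, x.uf_cj hr hl, x.uf_cj hy hl, conj_mul]
    exact cj_comm' (x.rel0 hr er hy ey)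
  rcases F.relS _ sb _ sc with e | ⟨j, hj, ⟨e1, e2⟩ | ⟨e1, e2⟩⟩
  · have := x.cm hb hc e
    rw [x.tuf hc]
    exact (x.ucomm hb hc this).mul_right (x.ufC hb hc.mem this.symm)
  · exact key hb hc hj e1 e2
  · have := cj_comm' (j := t) (key hc hb hj e1 e2)
    rw [show t * (t * uf L a u b * t⁻¹) * t⁻¹ = t * t * uf L a u b * (t * t)⁻¹ by group, x.t2] at this
    simpa using this.symm

end Dx

end H36.SW
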