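import Mathlib
import Cfsg.Agent.Lib.StdW.D2

/-! The subgroup `A = ⟨u(b)⟩` commutes with `t A t`, and `L` is the diagonal. -/

set_option autoImplicit false
set_option linter.unusedSectionVars false

namespace H36.SW

open Subgroup H69
open scoped commutatorElement

variable {X : Type} [Group X] {G : Type*} [Group G]
variable {F : Fx X} {t : G} {L O : Subgroup G} {α : G → X} {a u : G}

structure Pr (F : Fx X) (t : G) (L O : Subgroup G) (α : G → X) (a u : G) (A : Subgroup G) (β : G → X) :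
    Prop extends Dx F t L O α a u where
  covA : Cov F.J A β
  comm : ∀ g ∈ A, ∀ k ∈ A, g * (t * k * t⁻¹) = (t * k * t⁻¹) * g
  piL : ∀ g ∈ A, g * (t * g * t⁻¹) ∈ L
  piα : ∀ g ∈ A, α (g * (t * g * t⁻¹)) = β g
  onL : ∀ l ∈ L, ∃ g ∈ A, g * (t * g * t⁻¹) = l
  uA : u ∈ A
  genA : A ≤ closure {g | g ∈ A ∧ g * g = 1}

/-- `g ↦ g · t g t⁻¹` -/
def piH {A : Subgroup G} (t : G) (c : ∀ g ∈ A, ∀ k ∈ A, g * (t * k * t⁻¹) = (t * k * t⁻¹) * g) : A →* G :=
  MonoidHom.mk' (fun g => g * (t * g * t⁻¹)) fun g k => by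
    rw [coe_mul, cjm, mul_assoc, ← mul_assoc (k : G), c k k.2 g g.2]; group

theorem piH_apply {A : Subgroup G} (c : ∀ g ∈ A, ∀ k ∈ A, g * (t * k * t⁻¹) = (t * k * t⁻¹) * g) (g : A) :
    piH t c g = g * (t * g * t⁻¹) := rfl

theorem pi_norm {A : Subgroup G} (c : ∀ g ∈ A, ∀ k ∈ A, g * (t * k * t⁻¹) = (t * k * t⁻¹) * g) {g : G}
    (hg : g ∈ A) : g * (t * g * t⁻¹) ∈ 𝐍(A) :=
  mul_mem (le_normalizer hg) (centralizer_le_normalizer _ fun k hk => c k hk g hg)

theorem pi_cj {A : Subgroup G} (c : ∀ g ∈ A, ∀ k ∈ A, g * (t * k * t⁻¹) = (t * k * t⁻¹) * g) {g k : G}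
    (hg : g ∈ A) (hk : k ∈ A) : g * (t * g * t⁻¹) * k * (g * (t * g * t⁻¹))⁻¹ = g * k * g⁻¹ := by
  rw [mul_assoc g, ← c k hk g hg]; group

theorem odd_of_inv [Finite G] {g : G} (h : ∀ n : ℕ, g ^ n * g ^ n = 1 → g ^ n = 1) : Odd (orderOf g) := by
  by_contra h1
  have := H9.orderOf_pow_half (Nat.not_odd_iff_even.1 h1)
  exact H9.ne_one_of_orderOf_two this (h _ (H9.mul_self_of_orderOf_two this))

theorem Dx.exists_pr [Finite G] [Finite X] (x : Dx F t L O α a u) : ∃ A β, Pr F t L O α a u A β := by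
  let A := closure {v | ∃ b, Inv L b ∧ α b ∈ F.S ∧ v = uf L a u b}
  have ind : ∀ {K : Subgroup G}, (∀ b, Inv L b → α b ∈ F.S → uf L a u b ∈ K) → A ≤ K := fun h =>
    (closure_le _).2 fun _ ⟨b, h1, h2, e⟩ => e ▸ h b h1 h2
  have mA : ∀ {b}, Inv L b → α b ∈ F.S → uf L a u b ∈ A := fun h1 h2 => subset_closure ⟨_, h1, h2, rfl⟩
  have c : ∀ g ∈ A, ∀ k ∈ A, g * (t * k * t⁻¹) = (t * k * t⁻¹) * g := fun g hg k hk => by
    have : A ≤ 𝐂(A ^ᶜ t) := ind fun b hb sb => le_centralizer_iff.1 (cj_le_iff.2 (ind fun c hc sc => by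
      rw [mem_cj, inv_inv, centralizer_zpowers, mem_centralizer_singleton_iff]
      exact (x.rel hb hc sb sc).symm)) (mem_zpowers _)
    exact (this hg _ (cj_mem t hk)).symm
  have AO : ∀ o ∈ O, ∀ g ∈ A, g * o = o * g := fun o ho g hg =>
    mem_centralizer_singleton_iff.1 (ind (K := centralizer {o})
      (fun b hb _ => mem_centralizer_singleton_iff.2 (x.ufO hb ho)) hg)
  have pu : ∀ {b}, Inv L b → uf L a u b * (t * uf L a u b * t⁻¹) = b := fun hb => by
    rw [x.tuf hb, can (x.uf2 hb)]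
  have pL : ∀ g : A, piH t c g ∈ L := fun g => by
    have : A ≤ (L.comap (piH t c)).map A.subtype :=
      ind fun b hb sb => ⟨⟨_, mA hb sb⟩, show _ * _ ∈ L from (pu hb).symm ▸ hb.mem, rfl⟩
    obtain ⟨k, hk, e⟩ := this g.2
    exact Subtype.ext e ▸ hk
  have rL : (piH t c).range ≤ L := fun _ ⟨g, e⟩ => e ▸ pL g
  have on : ∀ j ∈ F.J, ∃ d ∈ (piH t c).range, α d = j := fun j hj =>
    x.cov.of_closure (rL.trans le_normalizer) (fun y hy => by
      obtain ⟨b, hb, rfl⟩ := x.lifti (F.invS y hy).1 (F.invS y hy).2.1 (F.invS y hy).2.2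
      exact ⟨b, ⟨⟨_, mA hb hy⟩, pu hb⟩, rfl⟩) (F.genS hj)
  have onL : ∀ l ∈ L, ∃ g : A, piH t c g = l := fun l hl => x.cov.gen rL on hl
  have uA : u ∈ A := by
    obtain ⟨y, hy⟩ : F.S.Nonempty := Set.nonempty_iff_ne_empty.2 fun e => F.z1 (by
      have := F.genS F.zJ
      rwa [e, Subgroup.closure_empty, mem_bot] at this)
    obtain ⟨b, hb, rfl⟩ := x.lifti (F.invS y hy).1 (F.invS y hy).2.1 (F.invS y hy).2.2
    obtain ⟨l, hl, rfl⟩ := x.ex hb
    obtain ⟨g, rfl⟩ := onL l hl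
    exact (mem_normalizer_iff.1 (pi_norm c g.2) u).2 (x.uf_eq hl ▸ mA hb hy)
  let f : A →* X := x.cov.hom.comp ((piH t c).codRestrict _ fun g => le_normalizer (pL g))
  have k1 : ∀ g : A, f g = 1 → (g : G) ∈ 𝐂(A) := fun g h k hk => by
    have := (Commute.mul_right (AO _ (x.ZO (pL g) h) k hk) (Commute.inv_right (c k hk g g.2))).eq
    rwa [piH_apply, mul_inv_cancel_right] at this
  have k2 : ∀ g : A, f g = 1 → g * g = 1 → g = 1 := fun g h g2 => by
    have h1 : piH t c g = 1 := (P2.of_sq (by rw [← map_mul, g2, map_one])).eq_one (x.cov.odd _ (pL g) h)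
    have g2' : (g : G) * g = 1 := congrArg Subtype.val g2
    have ct : g * t = t * g :=
      (mul_inv_eq_iff_eq_mul.1 ((eq_inv_of_mul_eq_one_right h1).trans (inv_eq_of_mul_eq_one_left g2'))).symm
    rcases x.ker_P2 (fun l hl => by
      obtain ⟨k, rfl⟩ := onL l hl
      refine (Commute.mul_left (k1 g h k k.2) ?_ :)
      have := cj_comm' (j := t) (k1 g h k k.2)
      rwa [← ct, mul_inv_cancel_right] at this) ct (P2.of_sq g2') with e | e
    · exact Subtype.ext e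
    · have := x.ut
      rw [← e, k1 g h u uA, mul_inv_cancel_right, eq_comm, mul_eq_left] at this
      exact absurd this x.ia.ne
  have k3 : ∀ g : A, f g = 1 → Odd (orderOf (g : G)) := fun g h => odd_of_inv fun n hn =>
    congrArg Subtype.val (k2 (g ^ n) (by rw [map_pow, h, one_pow]) (Subtype.ext hn))
  obtain ⟨β, h1, h2⟩ := exists_cov F f (fun g => x.cov.mem _ (pL g))
    (fun j hj => let ⟨_, ⟨g, e⟩, e'⟩ := on j hj; ⟨g, by rw [← e', ← e]; rfl⟩)
    (fun g h => ⟨k1 g h, k3 g h⟩) (ind fun b hb sb => by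
      have : ⁅L, L⁆ ≤ (⁅A, A⁆.subgroupOf A).map (piH t c) := commutator_le.2 fun l hl m hm => by
        obtain ⟨g, rfl⟩ := onL l hl
        obtain ⟨k, rfl⟩ := onL m hm
        exact ⟨⁅g, k⁆, commutator_mem_commutator g.2 k.2, map_commutatorElement _ _ _⟩
      obtain ⟨d, hd, e⟩ := this (x.cov.perf hb.mem)
      have e1 : f (d⁻¹ * ⟨_, mA hb sb⟩) = 1 := by
        rw [map_mul, map_inv, inv_mul_eq_one]
        exact congrArg α (e.trans (pu hb).symm)
      have o : Odd (orderOf ((d : G)⁻¹ * uf L a u b)) := k3 _ e1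
      have := Commute.mul_pow (show Commute (d : G) ((d : G)⁻¹ * uf L a u b) from k1 _ e1 d d.2)
        (orderOf ((d : G)⁻¹ * uf L a u b))
      rw [pow_orderOf_eq_one, mul_one, mul_inv_cancel_left, pow_odd_of_sq (x.uf2 hb) o] at this
      rw [this]; exact pow_mem hd _)
  exact ⟨A, β, x, h1, c, fun g hg => pL ⟨g, hg⟩, fun g hg => (h2 ⟨g, hg⟩).symm,
    fun l hl => let ⟨g, e⟩ := onL l hl; ⟨g, g.2, e⟩, uA,
    ind fun b hb sb => subset_closure ⟨mA hb sb, x.uf2 hb⟩⟩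

theorem eqns_D3 : True := by
  have := @piH.eq_1.{0}
  trivial

end H36.SW
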