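import Mathlib
import Cfsg.Agent.Lib.StdW.Cov
import Cfsg.Agent.Lib.Inv73.Transfer

/-! End game of the wreath case, part 1: a symmetric frame, valid for any `J` with Sylow subgroup `T`. -/

set_option autoImplicit false

namespace H43.SW

open Subgroup H69 H36.SW
open scoped commutatorElement

variable {X : Type} [Group X] {G : Type*} [Group G]

/-- Thompson transfer inside a subgroup `L`, for elements of order dividing four. -/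
theorem not_mem_comm [Finite G] {L S M : Subgroup G} (hS : IsSylowIn 2 S L) {s : G}
    (hs : s ∈ S) (sM : s ∉ M) (hm : ∀ a ∈ S, ∀ b ∈ S, a ∉ M → b ∉ M → a * b ∈ M) {x : G} (hx : x ∈ L)
    (x4 : x ^ 4 = 1) (h1 : ∀ g ∈ L, g * x * g⁻¹ ∉ M)
    (h2 : ∀ g ∈ L, g * x ^ 2 * g⁻¹ ∈ S → g * x ^ 2 * g⁻¹ ∈ M) : x ∉ ⁅L, L⁆ := by
  have o : Odd (S.subgroupOf L).index := by
    have := hS.not_dvd_relIndex
    exact Nat.odd_iff.2 (by unfold Subgroup.relIndex at this; omega)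
  have i2 : (M.subgroupOf L).relIndex (S.subgroupOf L) = 2 := by
    rw [relIndex_subgroupOf hS.le]
    refine index_eq_two_iff.2 ⟨⟨s, hs⟩, fun b => ?_⟩
    by_cases hb : (b : G) ∈ M
    · exact Or.inr ⟨hb, fun h => sM ((M.mul_mem_cancel_left hb).1 h)⟩
    · exact Or.inl ⟨hm _ b.2 _ hs hb sM, hb⟩
  obtain ⟨n, -, hn⟩ := (Nat.dvd_prime_pow Nat.prime_two).1
    (orderOf_dvd_of_pow_eq_one (x := (⟨x, hx⟩ : L)) (n := 2 ^ 2) (Subtype.ext x4))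
  obtain ⟨N, nN, iN, xN⟩ := H73.exists_index_two_of_transfer _ _ o i2 ⟨x, hx⟩ hn (fun g => h1 g g.2)
    (fun g i i1 _ h _ => by
      obtain rfl | hi : i = 1 ∨ 2 ≤ i := by omega
      · exact h2 g g.2 h
      · obtain ⟨k, rfl⟩ := Nat.exists_eq_add_of_le hi
        have : (⟨x, hx⟩ : L) ^ 2 ^ (2 + k) = 1 := by
          rw [pow_add, pow_mul]; exact (congrArg (· ^ 2 ^ k) (Subtype.ext x4)).trans (one_pow _)
        rw [this, mul_one, mul_inv_cancel]; exact one_mem _)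
  refine fun h => xN ?_
  have : ⁅L, L⁆ ≤ N.map L.subtype := commutator_le.2 fun a ha b hb =>
    ⟨⁅(⟨a, ha⟩ : L), ⟨b, hb⟩⁆, by
      rw [SetLike.mem_coe, commutatorElement_def]
      simp only [mul_mem_iff_of_index_two iN, inv_mem_iff]; tauto, rfl⟩
  obtain ⟨y, hy, e⟩ := this h
  exact (Subtype.ext e : y = ⟨x, hx⟩) ▸ hy

/-- The symmetric frame: `t` swaps the commuting covers `A`, `B` of `J` and controls `H = N({A, B})`. -/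
structure E2 (J T : Subgroup X) (G : Type*) [Group G] where
  (G0 A B H0 H T1 T2 S : Subgroup G)
  t : G
  (β1 β2 : G → X)
  c1 : Cov J A β1
  c2 : Cov J B β2
  syl : IsSylowIn 2 T J
  n0 : G0.Normal
  simple : IsSimpleGroup G0
  le1 : A ≤ G0
  le2 : B ≤ G0
  t2 : t * t = 1
  AB : A ^ᶜ t = B
  BA : B ^ᶜ t = A
  b12 : ∀ x, β2 x = β1 (t * x * t)
  b21 : ∀ x, β1 x = β2 (t * x * t)
  comm : ∀ a ∈ A, ∀ b ∈ B, a * b = b * a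
  K : ∀ k ∈ 𝐂(A), k ∈ 𝐂(B) → P2 k → k = 1
  m0 : ∀ g, g ∈ H0 ↔ g ∈ 𝐍(A) ∧ g ∈ 𝐍(B)
  mH : ∀ g, g ∈ H ↔ g ∈ H0 ∨ g * t ∈ H0
  no : ∀ g, g * t * g⁻¹ ∉ H0
  ctl : ∀ g, g * t * g⁻¹ ∈ H → g ∈ H
  m1 : ∀ a, a ∈ T1 ↔ a ∈ A ∧ P2 a ∧ β1 a ∈ T
  m2 : ∀ a, a ∈ T2 ↔ a ∈ B ∧ P2 a ∧ β2 a ∈ T
  sS : IsSylowIn 2 S ⊤
  T1S : T1 ≤ S
  T2S : T2 ≤ S
  tS : t ∈ S

/-- Construction of the frame from the hypotheses of `En`. -/
theorem exists_E2 [Finite G] {J T : Subgroup X} (syl : IsSylowIn 2 T J) {G0 A : Subgroup G} {t : G} {β : G → X}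
    (cov : Cov J A β) (n0 : G0.Normal) (simple : IsSimpleGroup G0) (le : A ≤ G0) (t2 : t * t = 1)
    (comm : ∀ a ∈ A, ∀ b ∈ A, a * (t * b * t⁻¹) = (t * b * t⁻¹) * a)
    (kerF : ∀ k ∈ 𝐂(A), k * t = t * k → k * k = 1 → k = 1)
    (noH0 : ∀ g, g * t * g⁻¹ ∉ 𝐍(A) ⊓ 𝐍(A ^ᶜ t))
    (ctl : ∀ g, g * t * g⁻¹ * t ∈ 𝐍(A) ⊓ 𝐍(A ^ᶜ t) → g ∈ 𝐍(A) ⊓ 𝐍(A ^ᶜ t) ∨ g * t ∈ 𝐍(A) ⊓ 𝐍(A ^ᶜ t)) :
    Nonempty (E2 J T G) := by
  have ti : t⁻¹ = t := inv_eq_of_mul_eq_one_left t2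
  have BA : (A ^ᶜ t) ^ᶜ t = A := by rw [cj_cj, t2, cj_one]
  have tN : t ∈ 𝐍(𝐍(A) ⊓ 𝐍(A ^ᶜ t)) := by
    rw [← cj_eq_self_iff, cj_inf, cj_normalizer, cj_normalizer, BA, inf_comm]
  have tC : t ∈ 𝐍(𝐂(A) ⊓ 𝐂(A ^ᶜ t)) := by
    rw [← cj_eq_self_iff, cj_inf, cj_centralizer, cj_centralizer, BA, inf_comm]
  have zt : zpowers t ≤ 𝐍(𝐍(A) ⊓ 𝐍(A ^ᶜ t)) := zpowers_le.2 tN
  have mH : ∀ g, g ∈ (𝐍(A) ⊓ 𝐍(A ^ᶜ t)) ⊔ zpowers t ↔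
      g ∈ 𝐍(A) ⊓ 𝐍(A ^ᶜ t) ∨ g * t ∈ 𝐍(A) ⊓ 𝐍(A ^ᶜ t) := fun g => by
    rw [mem_sup_of_le_normalizer_left zt]
    refine ⟨fun ⟨a, ha, b, hb, e⟩ => ?_, fun h => h.elim (fun h => ⟨g, h, 1, one_mem _, by simp⟩)
      fun h => ⟨_, h, t, mem_zpowers t, by rw [mul_assoc, t2, mul_one]⟩⟩
    rcases (mem_zp t2).1 hb with rfl | rfl
    · exact Or.inl (by simpa [e] using ha)
    · exact Or.inr (by rwa [e, mul_assoc, t2, mul_one])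
  have c2 := cov.cj t
  obtain ⟨T1, m1, -⟩ := cov.exists_lift syl.le syl.isP
  have m2 : ∀ a, a ∈ T1 ^ᶜ t ↔ a ∈ A ^ᶜ t ∧ P2 a ∧ β (t⁻¹ * a * t) ∈ T := fun a => by
    rw [mem_cj, mem_cj, m1]
    refine ⟨fun h => ⟨h.1, ?_, h.2.2⟩, fun h => ⟨h.1, by simpa using h.2.1.conj t⁻¹, h.2.2⟩⟩
    simpa [mul_assoc] using h.2.1.conj t
  have cm : ∀ a ∈ A, ∀ b ∈ A ^ᶜ t, a * b = b * a := fun a ha b hb => by
    obtain ⟨b, hb', rfl⟩ := mem_cj'.1 hb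
    exact comm a ha b hb'
  have p1 : IsPGroup 2 T1 := isP_of_P2 fun x hx => ((m1 x).1 hx).2.1
  have p12 : IsPGroup 2 (T1 ⊔ T1 ^ᶜ t : Subgroup G) := IsPGroup.to_sup_of_normal_right' p1 (isPGroup_cj p1 t)
    (le_normalizer_of_le_centralizer fun a ha b hb => (cm a ((m1 a).1 ha).1 b ((m2 b).1 hb).1).symm)
  have p3 : IsPGroup 2 ((T1 ⊔ T1 ^ᶜ t) ⊔ zpowers t : Subgroup G) :=
    IsPGroup.to_sup_of_normal_left' p12 (P2.of_sq t2).zpowers (zpowers_le.2 (by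
      rw [← cj_eq_self_iff, cj_sup, cj_cj, t2, cj_one, sup_comm]))
  obtain ⟨S, sS, hS⟩ := exists_isSylowIn_le p3 le_top
  refine ⟨⟨G0, A, A ^ᶜ t, 𝐍(A) ⊓ 𝐍(A ^ᶜ t), _, T1, T1 ^ᶜ t, S, t, β, _, cov, c2, syl, n0, simple, le,
    (cj_mono t le).trans (cj_eq_of_normal G0 t).le, t2, rfl, BA, fun x => by rw [ti],
    fun x => by congr 1; rw [ti]; simp only [← mul_assoc, t2, one_mul]; rw [mul_assoc, t2, mul_one],
    cm, fun k h1 h2 k2 => ?_, fun g => mem_inf, mH, noH0, fun g h => ?_, m1, m2, sS,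
    (le_sup_left.trans le_sup_left).trans hS, (le_sup_right.trans le_sup_left).trans hS,
    hS (mem_sup_right (mem_zpowers t))⟩⟩
  · by_contra k1
    obtain ⟨P, hP, tP⟩ := exists_isSylowIn_le (P2.of_sq t2).zpowers
      (le_sup_right : zpowers t ≤ (𝐂(A) ⊓ 𝐂(A ^ᶜ t)) ⊔ zpowers t)
    have h3 := hP.inf_normal le_sup_left (sup_le le_normalizer (zpowers_le.2 tC))
    have h4 : P ⊓ (𝐂(A) ⊓ 𝐂(A ^ᶜ t)) ≠ ⊥ := fun e => by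
      obtain ⟨g, -, hg⟩ := h3.exists_cj_le k2.zpowers (zpowers_le.2 ⟨h1, h2⟩)
      rw [e, le_bot_iff, cj_eq_bot_iff, zpowers_eq_bot] at hg
      exact k1 hg
    obtain ⟨x, hx, ox⟩ := exists_orderOf_eq_prime (h3.isP.to_inf_left)
      (inf_centralizer_ne_bot h3.isP (P2.of_sq t2).zpowers
        (le_normalizer_inf (le_normalizer_of_le tP) (zpowers_le.2 tC)) h4)
    have := kerF x hx.1.2.1 (hx.2 t (mem_zpowers t)).symm (by rw [← pow_two, ← ox, pow_orderOf_eq_one])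
    rw [this, orderOf_one] at ox
    exact absurd ox (by decide)
  · exact (mH g).2 (ctl g (((mH _).1 h).resolve_left (noH0 g)))

namespace E2
variable {J T : Subgroup X} (e : E2 J T G)

/-- exchange the two factors -/
def symm : E2 J T G :=
  { e with
    A := e.B, B := e.A, T1 := e.T2, T2 := e.T1, β1 := e.β2, β2 := e.β1, c1 := e.c2, c2 := e.c1, le1 := e.le2,
    le2 := e.le1, AB := e.BA, BA := e.AB, b12 := e.b21, b21 := e.b12,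
    comm := fun a ha b hb => (e.comm b hb a ha).symm, K := fun k h1 h2 => e.K k h2 h1,
    m0 := fun g => (e.m0 g).trans and_comm, m1 := e.m2, m2 := e.m1, T1S := e.T2S, T2S := e.T1S }

theorem ti : e.t⁻¹ = e.t := inv_eq_of_mul_eq_one_left e.t2
theorem tt (x : G) : e.t * (e.t * x) = x := by rw [← mul_assoc, e.t2, one_mul]
theorem tt' (x : G) : x * e.t * e.t = x := by rw [mul_assoc, e.t2, mul_one]
theorem N1 {g : G} (h : g ∈ e.H0) : g ∈ 𝐍(e.A) := ((e.m0 g).1 h).1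
theorem N2 {g : G} (h : g ∈ e.H0) : g ∈ 𝐍(e.B) := ((e.m0 g).1 h).2
theorem AC {a : G} (h : a ∈ e.A) : a ∈ 𝐂(e.B) := fun b hb => (e.comm a h b hb).symm
theorem BC {a : G} (h : a ∈ e.B) : a ∈ 𝐂(e.A) := e.symm.AC h
theorem A0 {a : G} (h : a ∈ e.A) : a ∈ e.H0 :=
  (e.m0 a).2 ⟨le_normalizer h, centralizer_le_normalizer _ (e.AC h)⟩
theorem B0 {a : G} (h : a ∈ e.B) : a ∈ e.H0 := e.symm.A0 h
theorem bA {a : G} (h : a ∈ e.A) : e.β2 a = 1 := e.c2.cen (e.AC h)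
theorem bB {a : G} (h : a ∈ e.B) : e.β1 a = 1 := e.symm.bA h
theorem tA {a : G} (h : a ∈ e.A) : e.t * a * e.t ∈ e.B := by
  have := cj_mem e.t h; rwa [e.AB, e.ti] at this
theorem tB {a : G} (h : a ∈ e.B) : e.t * a * e.t ∈ e.A := e.symm.tA h
theorem tN1 {g : G} (h : g ∈ 𝐍(e.A)) : e.t * g * e.t ∈ 𝐍(e.B) := by
  have := cj_mem e.t h; rwa [cj_normalizer, e.AB, e.ti] at this
theorem tC1 {g : G} (h : g ∈ 𝐂(e.A)) : e.t * g * e.t ∈ 𝐂(e.B) := by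
  have := cj_mem e.t h; rwa [cj_centralizer, e.AB, e.ti] at this
theorem t0 {g : G} (h : g ∈ e.H0) : e.t * g * e.t ∈ e.H0 :=
  (e.m0 _).2 ⟨e.symm.tN1 (e.N2 h), e.tN1 (e.N1 h)⟩
theorem tn : e.t ∉ e.H0 := by simpa using e.no 1
theorem H0H {g : G} (h : g ∈ e.H0) : g ∈ e.H := (e.mH g).2 (Or.inl h)
theorem tH : e.t ∈ e.H := (e.mH _).2 (Or.inr (e.t2 ▸ one_mem _))
theorem out {g : G} (h : g ∈ e.H) (n : g ∉ e.H0) : g * e.t ∈ e.H0 := ((e.mH g).1 h).resolve_left n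
theorem mt {g : G} (h : g ∈ e.H0) : g * e.t ∉ e.H0 := fun n => e.tn ((e.H0.mul_mem_cancel_left h).1 n)
theorem mul_out {g k : G} (hg : g ∈ e.H) (hk : k ∈ e.H) (ng : g ∉ e.H0) (nk : k ∉ e.H0) : g * k ∈ e.H0 := by
  have := mul_mem (e.out hg ng) (e.t0 (e.out hk nk))
  rwa [mul_assoc e.t, e.tt', mul_assoc, e.tt] at this
theorem T1A {a : G} (h : a ∈ e.T1) : a ∈ e.A := ((e.m1 a).1 h).1
theorem T2B {a : G} (h : a ∈ e.T2) : a ∈ e.B := ((e.m2 a).1 h).1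
theorem PS {a : G} (h : a ∈ e.S) : P2 a := P2.of_mem e.sS.isP h
theorem tT1 {a : G} (h : a ∈ e.T1) : e.t * a * e.t ∈ e.T2 :=
  (e.m2 _).2 ⟨e.tA (e.T1A h), e.PS (mul_mem (mul_mem e.tS (e.T1S h)) e.tS), e.b21 a ▸ ((e.m1 a).1 h).2.2⟩
theorem tT2 {a : G} (h : a ∈ e.T2) : e.t * a * e.t ∈ e.T1 := e.symm.tT1 h
theorem cT {a b : G} (ha : a ∈ e.T1) (hb : b ∈ e.T2) : a * b = b * a := e.comm a (e.T1A ha) b (e.T2B hb)
theorem dec {x : G} : x ∈ e.T1 ⊔ e.T2 ↔ ∃ a ∈ e.T1, ∃ b ∈ e.T2, x = a * b := mem_sup_comm fun _ h _ k => e.cT h k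
theorem TS : e.T1 ⊔ e.T2 ≤ e.S := sup_le e.T1S e.T2S
theorem TG : e.T1 ⊔ e.T2 ≤ e.G0 := sup_le (fun _ h => e.le1 (e.T1A h)) fun _ h => e.le2 (e.T2B h)
theorem T0 : e.T1 ⊔ e.T2 ≤ e.H0 := sup_le (fun _ h => e.A0 (e.T1A h)) fun _ h => e.B0 (e.T2B h)
theorem AB1 {a : G} (ha : a ∈ e.A) (hb : a ∈ e.B) (h : P2 a) : a = 1 := e.K a (e.BC hb) (e.AC ha) h
theorem b1 {a b : G} (ha : a ∈ e.A) (hb : b ∈ e.B) : e.β1 (a * b) = e.β1 a :=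
  e.c1.mul_cen (le_normalizer ha) (e.BC hb)
theorem b2 {a b : G} (ha : a ∈ e.A) (hb : b ∈ e.B) : e.β2 (a * b) = e.β2 b :=
  e.c2.cen_mul (le_normalizer hb) (e.AC ha)
/-- products `a b = 1` split -/
theorem split {a b : G} (ha : a ∈ e.T1) (hb : b ∈ e.T2) (h : a * b = 1) : a = 1 ∧ b = 1 := by
  have : a = 1 := e.AB1 (e.T1A ha) (eq_inv_of_mul_eq_one_left h ▸ inv_mem (e.T2B hb)) (e.PS (e.T1S ha))
  exact ⟨this, by simpa [this] using h⟩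
theorem split' {a b c d : G} (ha : a ∈ e.T1) (hb : b ∈ e.T2) (hc : c ∈ e.T1) (hd : d ∈ e.T2)
    (h : a * b = c * d) : a = c ∧ b = d := by
  have := e.split (mul_mem (inv_mem hc) ha) (mul_mem hb (inv_mem hd)) (by
    rw [mul_assoc, ← mul_assoc a, h]; group)
  exact ⟨(inv_mul_eq_one.1 this.1).symm, mul_inv_eq_one.1 this.2⟩
theorem bt {c : G} (h : c * e.t = e.t * c) : e.β2 c = e.β1 c := by rw [e.b12, ← h, e.tt']
/-- `2`-elements of `H0` acting trivially on both factors -/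
theorem K' {k : G} (h : k ∈ e.H0) (h1 : e.β1 k = 1) (h2 : e.β2 k = 1) (p : P2 k) : k = 1 :=
  e.K k ((e.c1.ker k (e.N1 h)).1 h1) ((e.c2.ker k (e.N2 h)).1 h2) p

variable [Finite G]

/-- every `2`-subgroup containing `t` lies in `H` -/
theorem two_le {P : Subgroup G} (hP : IsPGroup 2 P) (tP : e.t ∈ P) : P ≤ e.H := by
  by_contra n
  obtain ⟨x, hx, nx⟩ := SetLike.exists_of_lt (lt_inf_normalizer_of_lt hP
    (lt_of_le_of_ne (inf_le_left : P ⊓ e.H ≤ P) fun h => n (inf_eq_left.1 h)))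
  exact nx ⟨hx.1, e.ctl x (conj_mem_of_mem_normalizer hx.2 (⟨tP, e.tH⟩ : e.t ∈ P ⊓ e.H)).2⟩

theorem SH : e.S ≤ e.H := e.two_le e.sS.isP e.tS

theorem odd {Y R : Subgroup G} (tY : e.t ∈ Y) (hR : IsPGroup 2 R) (RY : R ≤ Y) : ∃ y ∈ Y, R ^ᶜ y ≤ e.H := by
  obtain ⟨P, hP, tP⟩ := exists_isSylowIn_le (P2.of_sq e.t2).zpowers (zpowers_le.2 tY)
  obtain ⟨y, hy, h⟩ := hP.exists_cj_le hR RY
  exact ⟨y, hy, h.trans (e.two_le hP.isP (tP (mem_zpowers _)))⟩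

theorem lift1 {x : X} (hx : x ∈ T) : ∃ a ∈ e.T1, e.β1 a = x := by
  obtain ⟨a, ha, rfl, p⟩ := e.c1.lift2 (e.syl.le hx) (P2.of_mem e.syl.isP hx)
  exact ⟨a, (e.m1 a).2 ⟨ha, p, hx⟩, rfl⟩

theorem imT {m : G} (hm : m ∈ e.S) (h0 : m ∈ e.H0) (h : e.β1 m ∈ J) : e.β1 m ∈ T := by
  have : T ≤ e.c1.im e.S ⊓ J := fun x hx => by
    obtain ⟨a, ha, rfl⟩ := e.lift1 hx
    exact ⟨e.c1.mem_im.2 ⟨a, e.T1S ha, le_normalizer (e.T1A ha), rfl⟩, e.syl.le hx⟩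
  exact (e.syl.max _ this inf_le_right (e.c1.isP_im e.sS.isP).to_inf_left).le
    ⟨e.c1.mem_im.2 ⟨m, hm, e.N1 h0, rfl⟩, h⟩

theorem inT {m : G} (hm : m ∈ e.S) (h0 : m ∈ e.H0) (h1 : e.β1 m ∈ J) (h2 : e.β2 m ∈ J) : m ∈ e.T1 ⊔ e.T2 := by
  obtain ⟨a, ha, ea⟩ := e.lift1 (e.imT hm h0 h1)
  obtain ⟨b, hb, eb⟩ := e.symm.lift1 (e.symm.imT hm h0 h2)
  have ab : a * b ∈ e.T1 ⊔ e.T2 := mul_mem_sup ha hb
  have n := e.T0 ab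
  have := e.K' (mul_mem (inv_mem n) h0)
    (by rw [e.c1.mul _ (e.N1 (inv_mem n)) _ (e.N1 h0), e.c1.inv (e.N1 n), e.b1 (e.T1A ha) (e.T2B hb), ea,
      inv_mul_cancel])
    (by rw [e.c2.mul _ (e.N2 (inv_mem n)) _ (e.N2 h0), e.c2.inv (e.N2 n), e.b2 (e.T1A ha) (e.T2B hb)]
        exact inv_mul_eq_one.2 eb)
    (e.PS (mul_mem (inv_mem (e.TS ab)) hm))
  exact inv_mul_eq_one.1 this ▸ ab

theorem syl0 : IsSylowIn 2 (e.S ⊓ e.G0) e.G0 :=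
  e.sS.inf_normal le_top (normal_iff_top_le_normalizer.1 e.n0)

omit [Finite G] in
/-- a subgroup normalised by `G0` which meets `G0` contains it -/
theorem le_of_norm {N : Subgroup G} (hN : e.G0 ≤ 𝐍(N)) {a : G} (ha : a ∈ N) (a0 : a ∈ e.G0) (a1 : a ≠ 1) :
    e.G0 ≤ N := by
  have := e.simple
  have n : (N.subgroupOf e.G0).Normal := ⟨fun x hx g => conj_mem_of_mem_normalizer (A := N) (hN g.2) hx⟩
  rcases n.eq_bot_or_eq_top with h | h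
  · have : (⟨a, a0⟩ : e.G0) ∈ N.subgroupOf e.G0 := ha
    rw [h, mem_bot] at this
    exact absurd (congrArg Subtype.val this) a1
  · exact subgroupOf_eq_top.1 h

omit [Finite G] in
theorem perf (hJ : J ≠ ⊥) : e.G0 ≤ ⁅e.G0, e.G0⁆ := by
  obtain ⟨⟨j, hj⟩, j1⟩ := ne_bot_iff_exists_ne_one.1 hJ
  obtain ⟨a, ha, rfl⟩ := e.c1.onto j hj
  exact e.le_of_norm (le_normalizer_commutator le_normalizer le_normalizer)
    (commutator_mono e.le1 e.le1 (e.c1.perf ha)) (e.le1 ha) fun h => j1 (Subtype.ext (h ▸ e.c1.one))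

/-- Thompson transfer in `G0` -/
theorem tr (hJ : J ≠ ⊥) {M : Subgroup G} {s : G} (hs : s ∈ e.S ⊓ e.G0) (sM : s ∉ M)
    (hm : ∀ a ∈ e.S ⊓ e.G0, ∀ b ∈ e.S ⊓ e.G0, a ∉ M → b ∉ M → a * b ∈ M) {x : G} (hx : x ∈ e.G0)
    (x4 : x ^ 4 = 1) (h2 : ∀ g ∈ e.G0, g * x ^ 2 * g⁻¹ ∈ e.S ⊓ e.G0 → g * x ^ 2 * g⁻¹ ∈ M) :
    ∃ g ∈ e.G0, g * x * g⁻¹ ∈ M := by
  by_contra! h1
  exact not_mem_comm e.syl0 hs sM hm hx x4 h1 h2 (e.perf hJ hx)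

theorem tr2 (hJ : J ≠ ⊥) {M : Subgroup G} {s : G} (hs : s ∈ e.S ⊓ e.G0) (sM : s ∉ M)
    (hm : ∀ a ∈ e.S ⊓ e.G0, ∀ b ∈ e.S ⊓ e.G0, a ∉ M → b ∉ M → a * b ∈ M) {x : G} (hx : x ∈ e.G0)
    (x2 : x * x = 1) : ∃ g ∈ e.G0, g * x * g⁻¹ ∈ M :=
  e.tr hJ hs sM hm hx (by rw [show 4 = 2 * 2 from rfl, pow_mul, pow_two x, x2, one_pow])
    fun g _ _ => by rw [pow_two, x2, mul_one, mul_inv_cancel]; exact one_mem _

theorem hm0 : ∀ a ∈ e.S ⊓ e.G0, ∀ b ∈ e.S ⊓ e.G0, a ∉ e.H0 → b ∉ e.H0 → a * b ∈ e.H0 :=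
  fun _ ha _ hb => e.mul_out (e.SH ha.1) (e.SH hb.1)

theorem tG (hJ : J ≠ ⊥) : e.t ∉ e.G0 := fun h =>
  let ⟨g, _, hg⟩ := e.tr2 hJ ⟨e.tS, h⟩ e.tn e.hm0 h e.t2; e.no g hg

/-- without outer automorphisms `T1 T2` is a Sylow subgroup of `G0` -/
theorem syl_of_top (hJ : ∀ x, x ∈ J) (hJ' : J ≠ ⊥) : IsSylowIn 2 (e.T1 ⊔ e.T2) e.G0 := by
  have : e.S ⊓ e.G0 ≤ e.T1 ⊔ e.T2 := fun s hs => by
    by_cases h : s ∈ e.H0
    · exact e.inT hs.1 h (hJ _) (hJ _)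
    · exact absurd ((e.G0.mul_mem_cancel_left hs.2).1 (e.TG (e.inT (mul_mem hs.1 e.tS) (e.out (e.SH hs.1) h)
        (hJ _) (hJ _)))) (e.tG hJ')
  exact le_antisymm this (le_inf e.TS e.TG) ▸ e.syl0

end E2

end H43.SW
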