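import Mathlib
import Cfsg.Agent.Lib.StdW.F1

/-! End game of the wreath case, part 2: `T1 T2` is a Sylow subgroup of `G0`. -/

set_option autoImplicit false

namespace H43.SW

open Subgroup H69 H36.SW
open scoped commutatorElement

variable {X : Type} [Group X] {G : Type*} [Group G] [Finite G]

omit [Finite G] in
theorem card_of_two {D M : Subgroup G} {s : G} (hs : s ∈ D) (sM : s ∉ M)
    (hm : ∀ a ∈ D, a ∉ M → a * s ∈ M) : Nat.card D = Nat.card (D ⊓ M : Subgroup G) * 2 := by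
  have i2 : (M.subgroupOf D).index = 2 := by
    refine index_eq_two_iff.2 ⟨⟨s, hs⟩, fun b => ?_⟩
    by_cases hb : (b : G) ∈ M
    · exact Or.inr ⟨hb, fun h => sM ((M.mul_mem_cancel_left hb).1 h)⟩
    · exact Or.inl ⟨hm _ b.2 hb, hb⟩
  rw [← (M.subgroupOf D).card_mul_index, i2, inf_comm, ← subgroupOf_map_subtype,
    card_map_of_injective D.subtype_injective]

namespace E2
variable {J T : Subgroup X} (e : E2 J T G)

theorem odd_inv {c : G} (h : c ∈ e.H0) (h1 : e.β1 c * e.β1 c = 1) (h2 : e.β2 c * e.β2 c = 1) :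
    ∃ n : ℕ, Odd n ∧ c ^ n * c ^ n = 1 ∧ e.β1 (c ^ n) = e.β1 c ∧ e.β2 (c ^ n) = e.β2 c := by
  obtain ⟨n, hn, p⟩ := exists_odd_P2 c
  have k := pow_mem h n
  have e1 : e.β1 (c ^ n) = e.β1 c := by rw [e.c1.pow (e.N1 h), pow_odd_of_sq h1 hn]
  have e2 : e.β2 (c ^ n) = e.β2 c := by rw [e.c2.pow (e.N2 h), pow_odd_of_sq h2 hn]
  exact ⟨n, hn, e.K' (mul_mem k k) (by rw [e.c1.mul _ (e.N1 k) _ (e.N1 k), e1, h1])
    (by rw [e.c2.mul _ (e.N2 k) _ (e.N2 k), e2, h2]) (p.mul p rfl), e1, e2⟩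

omit [Finite G] in
theorem b3 {m a b : G} (hm : m ∈ e.H0) (ha : a ∈ e.A) (hb : b ∈ e.B) :
    m * (a * b) ∈ e.H0 ∧ e.β1 (m * (a * b)) = e.β1 m * e.β1 a ∧ e.β2 (m * (a * b)) = e.β2 m * e.β2 b := by
  have k := mul_mem (e.A0 ha) (e.B0 hb)
  exact ⟨mul_mem hm k, by rw [e.c1.mul _ (e.N1 hm) _ (e.N1 k), e.b1 ha hb],
    by rw [e.c2.mul _ (e.N2 hm) _ (e.N2 k), e.b2 ha hb]⟩

omit [Finite G] in
theorem modG {m x : G} (hx : x ∈ e.G0) {n : ℕ} (hn : Odd n) (h : m * e.t ∈ e.G0) : (m * x) ^ n * e.t ∈ e.G0 := by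
  have := e.n0
  rw [← QuotientGroup.eq_one_iff] at hx h ⊢
  have t2 : ((e.t : G ⧸ e.G0)) * e.t = 1 := by rw [← QuotientGroup.mk_mul, e.t2, QuotientGroup.mk_one]
  rw [QuotientGroup.mk_mul] at h
  rw [QuotientGroup.mk_mul, QuotientGroup.mk_pow, QuotientGroup.mk_mul, hx, mul_one,
    eq_inv_of_mul_eq_one_left h, inv_eq_of_mul_eq_one_left t2, pow_odd_of_sq t2 hn, t2]

omit [Finite G] in
theorem mul_t {N : Subgroup G} (hN : e.t ∈ 𝐍(N)) {x : G} : x ∈ N ⊔ zpowers e.t ↔ x ∈ N ∨ x * e.t ∈ N := by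
  rw [mem_sup_of_le_normalizer_left (zpowers_le.2 hN)]
  refine ⟨fun ⟨a, ha, b, hb, h⟩ => ?_, fun h => h.elim (fun h => ⟨x, h, 1, one_mem _, by simp⟩)
    fun h => ⟨_, h, e.t, mem_zpowers _, (e.tt' x).symm⟩⟩
  rcases (mem_zp e.t2).1 hb with rfl | rfl
  · exact Or.inl (by simpa [h] using ha)
  · exact Or.inr (by rwa [h, e.tt'])

/-- if `T1 T2` is not Sylow in `G0`, some element of `S ∩ G0` outside it commutes with `t` -/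
theorem exists_comm (hJ : J ≠ ⊥) {s : G} (hs : s ∈ e.S ⊓ e.G0) (sT : s ∉ e.T1 ⊔ e.T2) :
    ∃ s1 ∈ e.S ⊓ e.G0, s1 ∉ e.T1 ⊔ e.T2 ∧ s1 * e.t = e.t * s1 := by
  have tG := e.tG hJ
  have tN : e.t ∈ 𝐍(e.T1 ⊔ e.T2) := mem_normalizer_of_cj_le (by
    rw [cj_sup]
    refine sup_le (fun x hx => ?_) fun x hx => ?_ <;> obtain ⟨a, ha, rfl⟩ := mem_cj'.1 hx <;> rw [e.ti]
    exacts [mem_sup_right (e.tT1 ha), mem_sup_left (e.tT2 ha)])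
  have tN0 : e.t ∈ 𝐍(e.G0) := normal_iff_top_le_normalizer.1 e.n0 (mem_top _)
  have lt : (e.T1 ⊔ e.T2) ⊔ zpowers e.t < e.S ⊓ (e.G0 ⊔ zpowers e.t) :=
    SetLike.lt_iff_le_and_exists.2 ⟨le_inf (sup_le e.TS (zpowers_le.2 e.tS)) (sup_le_sup_right e.TG _),
      s, mem_inf.2 ⟨hs.1, mem_sup_left hs.2⟩, fun h => ((e.mul_t tN).1 h).elim sT fun h =>
        tG ((e.G0.mul_mem_cancel_left hs.2).1 (e.TG h))⟩
  obtain ⟨x, ⟨hx, xN⟩, nx⟩ := SetLike.exists_of_lt (lt_inf_normalizer_of_lt e.sS.isP.to_inf_left lt)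
  have tR : e.t ∈ (e.T1 ⊔ e.T2) ⊔ zpowers e.t := mem_sup_right (mem_zpowers _)
  obtain ⟨s0, h0, sN, n0⟩ : ∃ s0 ∈ e.S ⊓ e.G0, s0 ∈ 𝐍((e.T1 ⊔ e.T2) ⊔ zpowers e.t) ∧ s0 ∉ e.T1 ⊔ e.T2 := by
    rcases (e.mul_t tN0).1 hx.2 with h | h
    · exact ⟨x, ⟨hx.1, h⟩, xN, fun k => nx (mem_sup_left k)⟩
    · exact ⟨_, ⟨mul_mem hx.1 e.tS, h⟩, mul_mem xN (le_normalizer tR), fun k => nx ((e.mul_t tN).2 (Or.inr k))⟩
  obtain ⟨a, ha, b, hb, h⟩ := e.dec.1 (((e.mul_t tN).1 (conj_mem_of_mem_normalizer sN tR)).resolve_left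
    fun k => e.no s0 (e.T0 k))
  have h1 : s0 * e.t * s0⁻¹ = a * b * e.t := by rw [← h, e.tt']
  have h2 := (e.split (mul_mem ha (e.tT2 hb)) (mul_mem hb (e.tT1 ha)) (by
    have := cjsq e.t2 s0
    rw [h1] at this
    rw [← this]
    calc _ = a * ((e.t * b * e.t) * (b * (e.t * a * e.t))) := by group
      _ = a * ((b * (e.t * a * e.t)) * (e.t * b * e.t)) := by rw [e.cT (e.tT2 hb) (mul_mem hb (e.tT1 ha))]
      _ = a * b * e.t * (a * (e.t * (e.t * b)) * e.t) := by group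
      _ = _ := by rw [e.tt])).2
  have aT : a ∈ e.T1 ⊔ e.T2 := mem_sup_left ha
  refine ⟨a⁻¹ * s0, mul_mem (inv_mem ⟨e.TS aT, e.TG aT⟩) h0,
    fun k => n0 ((Subgroup.mul_mem_cancel_left _ (inv_mem aT)).1 k), ?_⟩
  have h3 : b * e.t * a = e.t := by
    rw [← e.tt' (b * e.t * a)]; calc _ = b * (e.t * a * e.t) * e.t := by group
      _ = _ := by rw [h2, one_mul]
  calc _ = a⁻¹ * (s0 * e.t * s0⁻¹) * s0 := by group
    _ = (b * e.t * a) * (a⁻¹ * s0) := by rw [h1]; group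
    _ = _ := by rw [h3]

/-- Step 4, for an abstract invariant `Low` of involutions. -/
theorem syl_of_low (hJ : J ≠ ⊥) (sq : ∀ a, a ∉ J → ∀ b, b ∉ J → a * b ∈ J) {φ : X} (hφ : φ ∉ J) (φ2 : φ * φ = 1)
    (Low : G → Prop) (cj : ∀ y g, Low (g * y * g⁻¹) → Low y)
    (l1 : ∀ y ∈ e.H0, y * y = 1 → e.β1 y ∈ J → Low y) (l2 : ∀ y ∈ e.H0, y * y = 1 → e.β2 y ∈ J → Low y)
    (fz : ∀ c ∈ e.H0, c * e.t = e.t * c → c * c = 1 → e.β1 c ∉ J → ¬ Low c ∧ ¬ Low (c * e.t)) :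
    IsSylowIn 2 (e.T1 ⊔ e.T2) e.G0 := by
  have tG := e.tG hJ
  suffices h : e.S ⊓ e.G0 ≤ e.T1 ⊔ e.T2 from le_antisymm h (le_inf e.TS e.TG) ▸ e.syl0
  intro s hs
  by_contra sT
  obtain ⟨s1, h1, n1, c1⟩ := e.exists_comm hJ hs sT
  have iJ : ∀ x, x ∉ J → x⁻¹ * φ ∈ J := fun x hx => sq _ (fun h => hx (inv_mem_iff.1 h)) _ hφ
  obtain ⟨c, cS, c0, ct, cG, cJ⟩ : ∃ c ∈ e.S, c ∈ e.H0 ∧ c * e.t = e.t * c ∧ (c ∈ e.G0 ∨ c * e.t ∈ e.G0) ∧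
      e.β1 c ∉ J := by
    by_cases h : s1 ∈ e.H0
    · exact ⟨s1, h1.1, h, c1, Or.inl h1.2, fun k => n1 (e.inT h1.1 h k (e.bt c1 ▸ k))⟩
    · have k0 := e.out (e.SH h1.1) h
      have kc : s1 * e.t * e.t = e.t * (s1 * e.t) := by rw [← mul_assoc, ← c1]
      exact ⟨_, mul_mem h1.1 e.tS, k0, kc, Or.inr (by rw [e.tt']; exact h1.2), fun k =>
        tG ((e.G0.mul_mem_cancel_left h1.2).1 (e.TG (e.inT (mul_mem h1.1 e.tS) k0 k (e.bt kc ▸ k))))⟩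
  obtain ⟨s2, s2G, s22, s2L⟩ : ∃ s2 ∈ e.G0, s2 * s2 = 1 ∧ ¬ Low s2 := by
    obtain ⟨a, ha, ea⟩ := e.c1.onto _ (iJ _ cJ)
    obtain ⟨k0, k1, -⟩ := e.b3 c0 ha (e.tA ha)
    rw [ea, mul_inv_cancel_left] at k1
    have kc : c * (a * (e.t * a * e.t)) * e.t = e.t * (c * (a * (e.t * a * e.t))) := by
      rw [← mul_assoc e.t, ← ct, mul_assoc c, mul_assoc c, mul_assoc a, e.tt', e.comm a ha _ (e.tA ha)]
      congr 1
      calc _ = a * (e.t * a * e.t) * e.t := by rw [mul_assoc a, e.tt']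
        _ = e.t * a * e.t * a * e.t := by rw [e.comm a ha _ (e.tA ha)]
        _ = e.t * (a * (e.t * a * e.t)) := by group
        _ = _ := by rw [e.comm a ha _ (e.tA ha)]
    obtain ⟨n, hn, q2, q1, -⟩ := e.odd_inv k0 (by rw [k1, φ2]) (by rw [e.bt kc, k1, φ2])
    have qc : Commute ((c * (a * (e.t * a * e.t))) ^ n) e.t := Commute.pow_left kc n
    have aG := mul_mem (e.le1 ha) (e.le2 (e.tA ha))
    obtain ⟨f1, f2⟩ := fz _ (pow_mem k0 n) qc q2 (by rw [q1, k1]; exact hφ)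
    rcases cG with h | h
    · exact ⟨_, pow_mem (mul_mem h aG) n, q2, f1⟩
    · refine ⟨_, e.modG aG hn h, ?_, f2⟩
      rw [mul_assoc _ e.t, ← mul_assoc e.t _ e.t, ← qc.eq, e.tt', q2]
  obtain ⟨s3, s3S, s32, s3L⟩ : ∃ s3 ∈ e.S ⊓ e.G0, s3 * s3 = 1 ∧ ¬ Low s3 := by
    obtain ⟨g, -, hg⟩ := e.syl0.exists_cj_le (P2.of_sq s22).zpowers (zpowers_le.2 s2G)
    exact ⟨_, hg (cj_mem g (mem_zpowers _)), cjsq s22 g, fun h => s2L (cj _ _ h)⟩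
  have nT : ∀ g ∈ e.S ⊓ e.G0, g ∉ e.H0 → e.β1 (g * e.t) ∈ J → e.β2 (g * e.t) ∈ J → False := fun g hg n k1 k2 =>
    tG ((e.G0.mul_mem_cancel_left hg.2).1 (e.TG (e.inT (mul_mem hg.1 e.tS) (e.out (e.SH hg.1) n) k1 k2)))
  have sh : ∀ y ∈ e.H0, ∀ g ∈ e.S ⊓ e.G0, g ∉ e.H0 → y * g ∉ e.H0 ∧ e.β1 (y * g * e.t) = e.β1 y * e.β1 (g * e.t) ∧
      e.β2 (y * g * e.t) = e.β2 y * e.β2 (g * e.t) := fun y hy g hg n =>
    ⟨fun k => n ((e.H0.mul_mem_cancel_left hy).1 k),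
      by rw [mul_assoc, e.c1.mul _ (e.N1 hy) _ (e.N1 (e.out (e.SH hg.1) n))],
      by rw [mul_assoc, e.c2.mul _ (e.N2 hy) _ (e.N2 (e.out (e.SH hg.1) n))]⟩
  have nT2 : ∀ y ∈ e.S ⊓ e.G0, y ∈ e.H0 → y * y = 1 → ¬ Low y → ∀ g ∈ e.S ⊓ e.G0, g ∉ e.H0 →
      e.β1 (g * e.t) ∉ J → e.β2 (g * e.t) ∉ J → False := fun y hy y0 y2 yL g hg n k1 k2 =>
    let ⟨a, b, d⟩ := sh y y0 g hg n
    nT _ (mul_mem hy hg) a (b ▸ sq _ (fun h => yL (l1 y y0 y2 h)) _ k1) (d ▸ sq _ (fun h => yL (l2 y y0 y2 h)) _ k2)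
  have sqv : ∀ g ∈ e.S ⊓ e.G0, g ∉ e.H0 → e.β1 (g * g) = e.β1 (g * e.t) * e.β2 (g * e.t) := fun g hg n => by
    have k := e.out (e.SH hg.1) n
    rw [e.b12, ← e.c1.mul _ (e.N1 k) _ (e.N1 (e.t0 k)), mul_assoc e.t, e.tt', mul_assoc, e.tt]
  have hm : ∀ a ∈ e.S ⊓ e.G0, ∀ b ∈ e.S ⊓ e.G0, a ∉ e.S ⊓ e.H0 → b ∉ e.S ⊓ e.H0 → a * b ∈ e.S ⊓ e.H0 :=
    fun a ha b hb na nb => ⟨mul_mem ha.1 hb.1, e.hm0 a ha b hb (fun h => na ⟨ha.1, h⟩) fun h => nb ⟨hb.1, h⟩⟩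
  by_cases s30 : s3 ∈ e.H0
  swap
  · have k := sqv s3 s3S s30
    rw [s32, e.c1.one] at k
    have k1 : e.β1 (s3 * e.t) ∉ J := fun h =>
      nT s3 s3S s30 h (eq_inv_of_mul_eq_one_right k.symm ▸ inv_mem h)
    obtain ⟨g, gG, hg⟩ := e.tr2 hJ (M := e.S ⊓ e.H0) s3S (fun h => s30 h.2) hm s3S.2 s32
    exact nT2 _ ⟨hg.1, e.n0.conj_mem _ s3S.2 g⟩ hg.2 (cjsq s32 g) (fun h => s3L (cj _ _ h)) s3 s3S s30 k1
      fun h => k1 (eq_inv_of_mul_eq_one_left k.symm ▸ inv_mem h)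
  have j1 : e.β1 s3 ∉ J := fun h => s3L (l1 _ s30 s32 h)
  have j2 : e.β2 s3 ∉ J := fun h => s3L (l2 _ s30 s32 h)
  by_cases hle : e.S ⊓ e.G0 ≤ e.H0
  · obtain ⟨g, -, hg⟩ := e.tr2 hJ (M := (e.S ⊓ e.G0) ⊓ e.c1.pre J) s3S (fun h => j1 (e.c1.mem_pre.1 h.2).2)
      (fun a ha b hb na nb => ⟨mul_mem ha hb, e.c1.mem_pre.2 ⟨e.N1 (hle (mul_mem ha hb)), by
        rw [e.c1.mul _ (e.N1 (hle ha)) _ (e.N1 (hle hb))]
        exact sq _ (fun h => na ⟨ha, e.c1.mem_pre.2 ⟨e.N1 (hle ha), h⟩⟩) _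
          fun h => nb ⟨hb, e.c1.mem_pre.2 ⟨e.N1 (hle hb), h⟩⟩⟩⟩) s3S.2 s32
    exact s3L (cj _ _ (l1 _ (hle hg.1) (cjsq s32 g) (e.c1.mem_pre.1 hg.2).2))
  have ni : ∀ g ∈ e.S ⊓ e.G0, g * g = 1 → g ∈ e.H0 := fun g hg g2 => by
    by_contra n
    have k := sqv g hg n
    rw [g2, e.c1.one] at k
    have k1 : e.β1 (g * e.t) ∉ J := fun h => nT g hg n h (eq_inv_of_mul_eq_one_right k.symm ▸ inv_mem h)
    exact nT2 s3 s3S s30 s32 s3L g hg n k1 fun h => k1 (eq_inv_of_mul_eq_one_left k.symm ▸ inv_mem h)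
  obtain ⟨g, hg, n, g1, g2⟩ : ∃ g ∈ e.S ⊓ e.G0, g ∉ e.H0 ∧ e.β1 (g * e.t) ∉ J ∧ e.β2 (g * e.t) ∈ J := by
    obtain ⟨g, hg, n⟩ := SetLike.not_le_iff_exists.1 hle
    by_cases k : e.β1 (g * e.t) ∈ J
    · obtain ⟨a, b, d⟩ := sh s3 s30 g hg n
      exact ⟨_, mul_mem s3S hg, a, fun h => j1 ((J.mul_mem_cancel_right k).1 (b ▸ h)),
        d ▸ sq _ j2 _ (nT g hg n k)⟩
    · exact ⟨g, hg, n, k, by_contra (nT2 s3 s3S s30 s32 s3L g hg n k)⟩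
  obtain ⟨a, ha, ea⟩ := e.c1.onto _ (iJ _ g1)
  obtain ⟨b, hb, eb⟩ := e.c2.onto _ (inv_mem g2)
  obtain ⟨k0, k1, k2⟩ := e.b3 (e.out (e.SH hg.1) n) ha hb
  rw [ea, mul_inv_cancel_left] at k1
  rw [eb, mul_inv_cancel] at k2
  obtain ⟨m, hm1, q2, q1, q3⟩ := e.odd_inv k0 (by rw [k1, φ2]) (by rw [k2, mul_one])
  have uG := e.modG (mul_mem (e.le1 ha) (e.le2 hb)) hm1 (m := g * e.t) (by rw [e.tt']; exact hg.2)
  have f0 := pow_mem k0 m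
  generalize (g * e.t * (a * b)) ^ m = f at q1 q2 q3 uG f0
  rw [k1] at q1; rw [k2] at q3
  have w0 := mul_mem f0 (e.t0 f0)
  have w1 : e.β1 (f * (e.t * f * e.t)) = φ := by
    rw [e.c1.mul _ (e.N1 f0) _ (e.N1 (e.t0 f0)), ← e.b12, q1, q3, mul_one]
  have w2 : e.β2 (f * (e.t * f * e.t)) = φ := by
    rw [e.c2.mul _ (e.N2 f0) _ (e.N2 (e.t0 f0)), ← e.b21, q1, q3, one_mul]
  obtain ⟨r, -, r2, r1, -⟩ := e.odd_inv w0 (by rw [w1, φ2]) (by rw [w2, φ2])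
  have u2 : ((f * e.t) ^ r) ^ 2 = (f * (e.t * f * e.t)) ^ r := by
    rw [← pow_mul, mul_comm r, pow_mul, pow_two]; congr 1; group
  have wt : e.t * (f * (e.t * f * e.t)) * e.t⁻¹ = (f * (e.t * f * e.t))⁻¹ := by
    rw [e.ti, mul_assoc e.t, mul_assoc f, e.tt']
    refine eq_inv_of_mul_eq_one_left ?_
    calc _ = e.t * (f * (e.t * (f * f) * e.t) * f) * e.t := by group
      _ = 1 := by rw [q2, mul_one, e.t2, mul_one, q2, mul_one, e.t2]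
  have wc : (f * (e.t * f * e.t)) ^ r * e.t = e.t * (f * (e.t * f * e.t)) ^ r := by
    refine (mul_inv_eq_iff_eq_mul.1 ?_).symm
    rw [← conj_pow, wt, inv_pow]; exact inv_eq_of_mul_eq_one_left r2
  have u4 : ((f * e.t) ^ r) ^ 4 = 1 := by rw [show 4 = 2 * 2 from rfl, pow_mul, u2, pow_two, r2]
  obtain ⟨k, -, hk⟩ := e.tr hJ (M := e.S ⊓ e.H0) hg (fun h => n h.2) hm (pow_mem uG r) u4
    fun k _ h => ⟨h.1, ni _ h (by rw [u2]; exact cjsq r2 k)⟩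
  refine (fz _ (pow_mem w0 r) wc r2 (by rw [r1, w1]; exact hφ)).1 (cj _ k ?_)
  have ey : k * (f * (e.t * f * e.t)) ^ r * k⁻¹ = k * (f * e.t) ^ r * k⁻¹ * (k * (f * e.t) ^ r * k⁻¹) := by
    rw [← u2, pow_two]; group
  refine l1 _ (ey ▸ mul_mem hk.2 hk.2) (cjsq r2 k) ?_
  rw [ey, e.c1.mul _ (e.N1 hk.2) _ (e.N1 hk.2)]
  exact (em _).elim (fun h => mul_mem h h) fun h => sq _ h _ h

omit [Finite G] in
/-- elementary abelian subgroups of `H` not in `H0` -/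
theorem rk1 {D : Subgroup G} (hD : D ≤ e.H) (d2 : ∀ a ∈ D, a * a = 1) {s : G} (hs : s ∈ D) (n : s ∉ e.H0) :
    Nat.card D = Nat.card (e.c1.im (D ⊓ e.H0)) * 2 := by
  rw [card_of_two hs n fun a ha na => e.mul_out (hD ha) (hD hs) na n,
    e.c1.card_im (E := D ⊓ e.H0) fun x hx => e.N1 hx.2,
    (eq_bot_iff_forall _).2 fun x (hx : x ∈ (D ⊓ e.H0) ⊓ 𝐂(e.A)) => ?_, card_bot, mul_one]
  refine e.K x hx.2 ?_ (P2.of_sq (d2 x hx.1.1))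
  have := conj_mem_of_mem_normalizer (normalizer_le_normalizer_centralizer _ (e.N2 (e.out (hD hs) n))) (e.tC1 hx.2)
  rwa [mul_inv_rev, e.ti, show s * e.t * (e.t * x * e.t) * (e.t * s⁻¹) = s * e.t * e.t * (x * e.t * e.t) * s⁻¹ by group,
    e.tt', e.tt', comm_of_sq d2 hs hx.1.1, mul_inv_cancel_right] at this

omit [Finite G] in
/-- `2`-subgroups of `H0` -/
theorem rk2 [Finite X] {D : Subgroup G} (hD : D ≤ e.H0) (d2 : IsPGroup 2 D) :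
    Nat.card D ≤ Nat.card (e.c1.im D) * Nat.card (e.c2.im D) := by
  rw [e.c1.card_im (E := D) fun x hx => e.N1 (hD hx), e.c2.card_im (E := D ⊓ 𝐂(e.A)) fun x hx => e.N2 (hD hx.1),
    (eq_bot_iff_forall _).2 fun x (hx : x ∈ (D ⊓ 𝐂(e.A)) ⊓ 𝐂(e.B)) => e.K x hx.1.2 hx.2 (P2.of_mem d2 hx.1.1),
    card_bot, mul_one]
  exact Nat.mul_le_mul_left _ (card_le_of_le fun x hx =>
    let ⟨a, ha, n, h⟩ := e.c2.mem_im.1 hx; e.c2.mem_im.2 ⟨a, ha.1, n, h⟩)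

end E2

/-- the lift of an elementary abelian subgroup commuting with `α y` -/
theorem lift_ea {J : Subgroup X} {A : Subgroup G} {α : G → X} (c : Cov J A α) {Y : Subgroup X} (hY : Y ≤ J)
    (y2 : ∀ u ∈ Y, u * u = 1) {y : G} (hy : y ∈ 𝐍(A)) (cy : ∀ u ∈ Y, α y * u = u * α y) :
    ∃ E : Subgroup G, E ≤ A ∧ (∀ a ∈ E, a * a = 1) ∧ (∀ a ∈ E, a * y = y * a) ∧ Nat.card E = Nat.card Y := by
  obtain ⟨E, hE, k⟩ := c.exists_lift hY (isP_of_P2 fun u hu => P2.of_sq (y2 u hu))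
  refine ⟨E, fun a ha => ((hE a).1 ha).1, fun a ha => ?_, fun a ha => ?_, k⟩ <;> obtain ⟨h1, h2, h3⟩ := (hE a).1 ha
  · rw [← pow_two]; exact c.pow_eq_one h1 h2 (by rw [pow_two, y2 _ h3])
  · exact (c.comm_lift hy h1 h2 (cy _ h3)).symm

omit [Finite G] in
theorem im_sq {J : Subgroup X} {A : Subgroup G} {α : G → X} (c : Cov J A α) {D : Subgroup G}
    (d2 : ∀ a ∈ D, a * a = 1) : ∀ x ∈ c.im D, x * x = 1 := fun _ hx =>
  let ⟨a, ha, n, h⟩ := c.mem_im.1 hx; h ▸ c.sq n (d2 a ha)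

omit [Finite G] in
theorem sup_ea {D E : Subgroup G} (d2 : ∀ a ∈ D, a * a = 1) (e2 : ∀ a ∈ E, a * a = 1)
    (c : ∀ a ∈ D, ∀ b ∈ E, a * b = b * a) : ∀ x ∈ D ⊔ E, x * x = 1 := fun x hx => by
  obtain ⟨a, ha, b, hb, rfl⟩ := (mem_sup_comm c).1 hx
  rw [mul_assoc, ← mul_assoc b, ← c a ha b hb, mul_assoc, e2 b hb, mul_one, d2 a ha]

omit [Finite G] in
theorem zp_ea {y : G} (h : y * y = 1) : ∀ a ∈ zpowers y, a * a = 1 := fun a ha => by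
  rcases (mem_zp h).1 ha with rfl | rfl
  exacts [mul_one _, h]

omit [Finite G] in
theorem zp_comm {D : Subgroup G} {y : G} (c : ∀ a ∈ D, a * y = y * a) : ∀ a ∈ D, ∀ b ∈ zpowers y, a * b = b * a :=
  fun a ha _ ⟨k, hk⟩ => hk ▸ (Commute.zpow_right (c a ha) k).eq

omit [Finite G] in
theorem sup_cm {D E : Subgroup G} {y : G} (c : ∀ a ∈ D, a * y = y * a) (d : ∀ a ∈ E, a * y = y * a) :
    ∀ a ∈ D ⊔ E, a * y = y * a := fun _ ha => mem_centralizer_singleton_iff.1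
  ((sup_le (fun a ha => mem_centralizer_singleton_iff.2 (c a ha))
    (fun a ha => mem_centralizer_singleton_iff.2 (d a ha)) : D ⊔ E ≤ centralizer {y}) ha)

omit [Finite G] in
theorem zp_cm {x y : G} (c : x * y = y * x) : ∀ a ∈ zpowers x, a * y = y * a :=
  fun _ ⟨k, hk⟩ => hk ▸ (Commute.zpow_left c k).eq

/-- an elementary abelian group of order at least `n` centralises `y` -/
def Low (n : ℕ) (y : G) : Prop :=
  ∃ E : Subgroup G, (∀ a ∈ E, a * a = 1) ∧ (∀ a ∈ E, a * y = y * a) ∧ n ≤ Nat.card E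

omit [Finite G] in
theorem Low.cj {n : ℕ} (y g : G) (h : Low n (g * y * g⁻¹)) : Low n y := by
  obtain ⟨E, h1, h2, h3⟩ := h
  refine ⟨E ^ᶜ g⁻¹, fun a ha => ?_, fun a ha => ?_, by rwa [card_cj]⟩ <;> obtain ⟨b, hb, rfl⟩ := mem_cj'.1 ha
  · exact cjsq (h1 b hb) _
  · calc _ = g⁻¹ * (b * (g * y * g⁻¹)) * g := by group
      _ = _ := by rw [h2 b hb]; group

variable [Finite X] {F : Fx X}

omit [Finite X] in
theorem Jne (F : Fx X) : F.J ≠ ⊥ := fun h => F.z1 (mem_bot.1 (h ▸ F.zJ))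

theorem e16 {A : Subgroup G} {α : G → X} (c : Cov F.J A α) {y : G} (hy : y ∈ 𝐍(A)) (y2 : y * y = 1)
    (h : α y ∈ F.J) :
    ∃ E : Subgroup G, E ≤ A ∧ (∀ a ∈ E, a * a = 1) ∧ (∀ a ∈ E, a * y = y * a) ∧ Nat.card E = 16 := by
  obtain ⟨j, hj, k⟩ : ∃ j ∈ F.J, α y ∈ F.U ^ᶜ j := by
    by_cases h1 : α y = 1
    · exact ⟨1, one_mem _, by rw [h1]; exact one_mem _⟩
    · obtain ⟨j, hj, k⟩ := F.inv h (c.sq hy y2) h1
      exact ⟨j, hj, k ▸ cj_mem j F.zU⟩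
  have u2 : ∀ u ∈ F.U ^ᶜ j, u * u = 1 := fun u hu => by
    obtain ⟨a, ha, rfl⟩ := mem_cj'.1 hu
    exact cjsq (F.U2 a ha) j
  simpa only [card_cj, F.cU] using lift_ea c (cj_le_of_mem F.UJ hj) u2 hy fun u hu => comm_of_sq u2 k hu

theorem e4 {A : Subgroup G} {α : G → X} (c : Cov F.J A α) {y : G} (hy : y ∈ 𝐍(A)) (y2 : y * y = 1)
    (h : α y ∉ F.J) :
    ∃ E : Subgroup G, E ≤ A ∧ (∀ a ∈ E, a * a = 1) ∧ (∀ a ∈ E, a * y = y * a) ∧ Nat.card E = 4 := by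
  obtain ⟨b, hb, d, hd, b2, d2, bx, dx, n, p4, -⟩ := F.out _ h (c.sq hy y2)
  have a2 : (b * d) ^ 2 * (b * d) ^ 2 = 1 := by rw [← pow_add, p4]
  have bi : b⁻¹ = b := inv_eq_of_mul_eq_one_left b2
  have ab : (b * d) ^ 2 * b = b * (b * d) ^ 2 := by
    have : b * (b * d) * b⁻¹ = (b * d)⁻¹ := by
      rw [← mul_assoc, b2, one_mul, mul_inv_rev, inv_eq_of_mul_eq_one_left d2]
    refine (mul_inv_eq_iff_eq_mul.1 ?_).symm
    rw [← conj_pow, this, inv_pow, inv_eq_of_mul_eq_one_left a2]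
  have b1 : b ≠ 1 := fun k => n (by rw [k, one_mul, pow_two, d2])
  have cc := zp_comm (zp_cm ab)
  have k : Nat.card (zpowers ((b * d) ^ 2) ⊔ zpowers b : Subgroup X) = 4 := by
    rw [card_sup_comm cc, card_zp a2 n, card_zp b2 b1]
    intro a ha hb
    refine ((mem_zp a2).1 ha).resolve_right fun k => ?_
    rcases (mem_zp b2).1 hb with l | l
    · exact n (k ▸ l)
    · refine b1 ?_
      have : d * b * d = 1 := mul_left_cancel (a := b) (by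
        rw [mul_one]; refine Eq.trans ?_ (k.symm.trans l); rw [pow_two]; group)
      rw [← mul_left_cancel_iff (a := d), ← mul_right_cancel_iff (a := d), this, mul_one, d2]
  rw [← k]
  refine lift_ea c (sup_le (zpowers_le.2 (pow_mem (mul_mem hb hd) 2)) (zpowers_le.2 hb))
    (sup_ea (zp_ea a2) (zp_ea b2) cc) hy fun u hu => ?_
  exact (sup_cm (zp_cm ((Commute.mul_left bx dx).pow_left 2).eq) (zp_cm bx) u hu).symm

namespace E2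
variable (e : E2 F.J F.T G)

theorem low1 : ∀ y ∈ e.H0, y * y = 1 → e.β1 y ∈ F.J → Low 128 y := fun y hy y2 h => by
  obtain ⟨D, DA, d2, dy, cD⟩ := e16 e.c1 (e.N1 hy) y2 h
  have key : ∀ E ≤ e.B, (∀ a ∈ E, a * a = 1) → (∀ a ∈ E, a * y = y * a) →
      (∀ a ∈ D ⊔ E, a * a = 1) ∧ (∀ a ∈ D ⊔ E, a * y = y * a) ∧
        Nat.card (D ⊔ E : Subgroup G) = 16 * Nat.card E := fun E EB e2 ey => by
    have cc : ∀ a ∈ D, ∀ b ∈ E, a * b = b * a := fun a ha b hb => e.comm a (DA ha) b (EB hb)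
    exact ⟨sup_ea d2 e2 cc, sup_cm dy ey, by
      rw [card_sup_comm cc fun a ha hb => e.AB1 (DA ha) (EB hb) (P2.of_sq (d2 a ha)), cD]⟩
  by_cases h2 : e.β2 y ∈ F.J
  · obtain ⟨E, EB, e2, ey, cE⟩ := e16 e.c2 (e.N2 hy) y2 h2
    obtain ⟨k1, k2, k3⟩ := key E EB e2 ey
    exact ⟨_, k1, k2, by omega⟩
  · obtain ⟨E, EB, e2, ey, cE⟩ := e4 e.c2 (e.N2 hy) y2 h2
    obtain ⟨k1, k2, k3⟩ := key E EB e2 ey
    have y1 : y ≠ 1 := fun k => h2 (by rw [k, e.c2.one]; exact one_mem _)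
    refine ⟨(D ⊔ E) ⊔ zpowers y, sup_ea k1 (zp_ea y2) (zp_comm k2), sup_cm k2 (zp_cm rfl), ?_⟩
    · rw [card_sup_comm (zp_comm k2), k3, cE, card_zp y2 y1]
      intro a ha hb
      refine ((mem_zp y2).1 hb).resolve_right fun k => h2 ?_
      obtain ⟨u, hu, v, hv, l⟩ := (mem_sup_comm fun a ha b hb => e.comm a (DA ha) b (EB hb)).1 ha
      rw [← k, l, e.b2 (DA hu) (EB hv)]; exact e.c2.mem _ (EB hv)

theorem fz {c s : G} (ct : c * e.t = e.t * c) (cJ : e.β1 c ∉ F.J) (s2 : s * s = 1) (st : s * e.t = e.t * s)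
    (hs : s ∈ e.H0 → s = c) : ¬ Low 128 s := fun ⟨E, e2, es, cE⟩ => by
  have d2 := sup_ea e2 (zp_ea s2) (zp_comm es)
  obtain ⟨y, hy, h⟩ := e.odd (Y := centralizer {s}) (mem_centralizer_singleton_iff.2 st.symm)
    (isP_of_P2 fun x hx => P2.of_sq (d2 x hx)) fun a ha => mem_centralizer_singleton_iff.2 (sup_cm es (zp_cm rfl) a ha)
  have sD : s ∈ (E ⊔ zpowers s) ^ᶜ y := by
    have := cj_mem y (mem_sup_right (mem_zpowers s) : s ∈ E ⊔ zpowers s)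
    rwa [mem_centralizer_singleton_iff.1 hy, mul_inv_cancel_right] at this
  have cD : 128 ≤ Nat.card ((E ⊔ zpowers s) ^ᶜ y) := by
    rw [card_cj]; exact cE.trans (card_le_of_le le_sup_left)
  have D2 : ∀ a ∈ (E ⊔ zpowers s) ^ᶜ y, a * a = 1 := fun a ha => by
    obtain ⟨b, hb, rfl⟩ := mem_cj'.1 ha
    exact cjsq (d2 b hb) y
  generalize (E ⊔ zpowers s) ^ᶜ y = D at h sD cD D2
  by_cases hD : D ≤ e.H0
  · obtain rfl := hs (hD sD)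
    have k := e.rk2 hD (isP_of_P2 fun x hx => P2.of_sq (D2 x hx))
    have k1 := F.ea8 (im_sq e.c1 D2) (e.c1.mem_im.2 ⟨s, sD, e.N1 (hD sD), rfl⟩) cJ
    have k2 := F.ea8 (im_sq e.c2 D2) (e.c2.mem_im.2 ⟨s, sD, e.N2 (hD sD), rfl⟩) (e.bt ct ▸ cJ)
    have := Nat.mul_le_mul k1 k2
    omega
  · obtain ⟨x, hx, n⟩ := SetLike.not_le_iff_exists.1 hD
    have k := e.rk1 h D2 hx n
    have := F.ea16 (im_sq e.c1 (D := D ⊓ e.H0) fun a ha => D2 a ha.1)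
    omega

theorem sylT : IsSylowIn 2 (e.T1 ⊔ e.T2) e.G0 := by
  rcases F.outex with h | ⟨φ, hφ, φ2⟩
  · exact e.syl_of_top (fun x => by rw [h]; exact mem_top x) (Jne F)
  refine e.syl_of_low (Jne F) F.sq hφ φ2 (Low 128) Low.cj e.low1 e.symm.low1 fun c c0 ct c2 cJ =>
    ⟨e.fz ct cJ c2 ct fun _ => rfl, e.fz ct cJ ?_ (by rw [← mul_assoc, ← ct]) fun h => absurd h (e.mt c0)⟩
  rw [mul_assoc, ← mul_assoc e.t, ← ct, e.tt', c2]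

end E2

end H43.SW
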